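import Cfsg.Agent.Hls.GK

/-!
# Fixed spaces: `SL₂(p)` in cross characteristic
-/

set_option autoImplicit false

namespace Cfsg.Lib.Hls

open Module
open LinearMap hiding smul_apply sub_apply add_apply zero_apply
open Matrix.SpecialLinearGroup (toGL)

universe v

variable {K : Type*} [Field K] {p : ℕ} [hp : Fact p.Prime]

/-- `diag(a, 1)` -/
def dd {F : Type*} [Field F] (a : Fˣ) : GL (Fin 2) F :=
  ⟨!![(a : F), 0; 0, 1], !![((a⁻¹ : Fˣ) : F), 0; 0, 1],
    by ext i j; fin_cases i <;> fin_cases j <;> simp,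
    by ext i j; fin_cases i <;> fin_cases j <;> simp⟩

theorem dd_val {F : Type*} [Field F] (a : Fˣ) : (dd a).1 = !![(a : F), 0; 0, 1] := rfl

theorem uu_dd {F : Type*} [Field F] (a : Fˣ) :
    toGL (uu (1 : F)) * dd a⁻¹ = dd a⁻¹ * toGL (uu (a : F)) := by
  apply Units.ext
  ext i j; fin_cases i <;> fin_cases j <;> simp [dd_val, Matrix.mul_apply]

theorem uu_val_pow (a : ZMod p) : uu a = uu (1 : ZMod p) ^ a.val := by
  rw [uu_pow]; simp

theorem uu_one_pow : uu (1 : ZMod p) ^ p = 1 := by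
  rw [uu_pow]; simp [uu_zero]

theorem hh_eq_one {A : Type*} [Monoid A] (f : Matrix.SpecialLinearGroup (Fin 2) (ZMod p) →* A)
    (h : f (uu 1) = 1) : f hh = 1 := by
  have h1 : ∀ a, f (uu a) = 1 := fun a => by rw [uu_val_pow, map_pow, h, one_pow]
  have h2 := congrArg f (hh_ww (F := ZMod p))
  simp only [map_mul, h1, one_mul, mul_one] at h2
  rw [← map_mul f ww⁻¹, inv_mul_cancel, map_one, mul_one] at h2
  have h3 := congrArg (· * f ww⁻¹) h2
  simpa only [mul_assoc, ← map_mul, mul_inv_cancel, map_one, mul_one] using h3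

section

variable {M : Type*} [AddCommGroup M] [Module K M] [FiniteDimensional K M]

theorem dim_ge [IsAlgClosed K] (σ : Representation K (GL (Fin 2) (ZMod p)) M) (hpK : (p : K) ≠ 0)
    (hY : σ (toGL (uu 1)) ≠ 1) : p - 1 ≤ finrank K M := by
  set Y := σ (toGL (uu 1)) with hYd
  have hYp : Y ^ p = 1 := by rw [hYd, ← map_pow, ← map_pow, uu_one_pow, map_one, map_one]
  have hg : gs (1 : K) Y p = ∑ i ∈ Finset.range p, Y ^ i := by simp [gs]
  let W := ker (gs (1 : K) Y p)
  have hW : ∀ x ∈ W, Y x ∈ W := by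
    intro x hx
    rw [mem_ker] at hx ⊢
    have : gs (1 : K) Y p * Y = Y * gs (1 : K) Y p := by
      rw [hg, Finset.sum_mul, Finset.mul_sum]
      exact Finset.sum_congr rfl fun i _ => by rw [← pow_succ, pow_succ']
    rw [← End.mul_apply, this, End.mul_apply, hx, map_zero]
  have hW0 : W ≠ ⊥ := by
    intro h0
    apply hY
    ext x
    have : (Y - 1) x ∈ W := by
      rw [mem_ker, ← End.mul_apply, hg, geom_sum_mul, hYp, sub_self]; rfl
    rw [h0, Submodule.mem_bot] at this
    exact sub_eq_zero.mp this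
  have : Nontrivial W := Submodule.nontrivial_iff_ne_bot.mpr hW0
  obtain ⟨ζ, hζ⟩ := End.exists_eigenvalue (Y.restrict hW)
  obtain ⟨⟨x, hx⟩, hx1, hx2⟩ := hζ.exists_hasEigenvector
  have hx0 : x ≠ 0 := fun h => hx2 (Subtype.ext h)
  have e1 : Y x = ζ • x := congrArg Subtype.val (End.mem_eigenspace_iff.mp hx1)
  have hζp : ζ ^ p = 1 := pow_eq_one_of_eig σ (by rw [← map_pow, uu_one_pow, map_one]) hx0 e1
  have hζ1 : ζ ≠ 1 := by
    rintro rfl
    have := gs_apply_of_eig (n := p) one_ne_zero e1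
    rw [inv_one, mem_ker.mp hx] at this
    exact hx0 ((smul_eq_zero.mp this.symm).resolve_left hpK)
  have hprim : IsPrimitiveRoot ζ p := by
    rw [← orderOf_eq_prime hζp hζ1]; exact IsPrimitiveRoot.orderOf ζ
  have hli := End.eigenvectors_linearIndependent' Y (fun a : (ZMod p)ˣ => ζ ^ (a : ZMod p).val)
    (fun a b hab => Units.ext (ZMod.val_injective p
      (hprim.pow_inj (ZMod.val_lt _) (ZMod.val_lt _) hab)))
    (fun a => σ (dd a⁻¹) x) fun a => by
      refine ⟨End.mem_eigenspace_iff.mpr ?_, fun h => hx0 (rep_inj σ _ h)⟩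
      rw [hYd, ← End.mul_apply, ← map_mul, uu_dd, map_mul, End.mul_apply, uu_val_pow, map_pow,
        rep_pow_eig σ e1, map_smul]
  have := hli.fintype_card_le_finrank
  rwa [ZMod.card_units] at this

theorem gl_simple [IsAlgClosed K] {σ : Representation K (GL (Fin 2) (ZMod p)) M} (hσ : Sim σ)
    (h3 : p % 3 = 2) (h9 : 9 ≤ p) (hpK : (p : K) ≠ 0) (h3K : ((3 : ℕ) : K) ≠ 0) :
    finrank K M ≤ 6 * rk (gs (1 : K) (σ (toGL hh)) 3) := by
  by_cases hY : σ (toGL (uu 1)) = 1
  · have h1 : σ (toGL hh) = 1 := hh_eq_one (σ.comp toGL) hY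
    have := rk_gs_of_fix (T := σ (toGL hh)) h3K fun v => by rw [h1]; rfl
    omega
  have hN := dim_ge σ hpK hY
  obtain ⟨s, hs, c, i, hc, hsc⟩ := exists_torus h3
  have hA := gk hσ tG tG_mul tG_surj s hs
  obtain ⟨κ, hκ⟩ := hσ.schur (σ c) fun g v => by
    rw [← End.mul_apply, ← map_mul, hc, map_mul, End.mul_apply]
  set H := σ (toGL hh) with hH
  have hθ : ∀ θ : K, nl (H - algebraMap K _ θ) ≤ (p + 1) / 3 := by
    intro θ
    refine le_trans (Submodule.finrank_mono ?_)
      (nl_pow_sub_le (σ s) hA (n := (p + 1) / 3) (by omega) (κ * θ ^ i))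
    intro x hx
    rw [mem_ker, LinearMap.sub_apply, sub_eq_zero, Module.algebraMap_end_apply] at hx ⊢
    rw [← map_pow, hsc, map_mul, End.mul_apply, rep_pow_eig σ hx, hκ, smul_smul]
  obtain ⟨ω, hω⟩ : ∃ ω : K, ω ^ 2 + ω + 1 = 0 := by
    obtain ⟨ω, hω⟩ := IsAlgClosed.exists_root
      (Polynomial.X ^ 2 + Polynomial.X + 1 : Polynomial K) (by
        have : (Polynomial.X ^ 2 + Polynomial.X + 1 : Polynomial K).degree = 2 := by compute_degree!
        rw [this]; decide)
    exact ⟨ω, by simpa using hω⟩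
  have hH3 : H ^ 3 = 1 := by rw [hH, ← map_pow, ← map_pow, hh_pow, map_one, map_one]
  have hprod : (H - 1) * ((H - algebraMap K _ ω) * (H - algebraMap K _ (ω ^ 2))) = 0 := by
    have e : (Polynomial.X - 1) * ((Polynomial.X - Polynomial.C ω) *
        (Polynomial.X - Polynomial.C (ω ^ 2))) = (Polynomial.X ^ 3 - 1 : Polynomial K) := by
      have := congrArg Polynomial.C hω
      simp only [map_add, map_pow, map_one, map_zero] at this
      rw [map_pow]
      linear_combination (-Polynomial.X ^ 2 + Polynomial.X * Polynomial.C ω -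
        Polynomial.C ω + 1) * this
    have := congrArg (Polynomial.aeval H) e
    simp only [map_mul, map_sub, Polynomial.aeval_X, Polynomial.aeval_C, map_one, map_pow, hH3,
      sub_self] at this
    rw [← this, map_pow]
  have i1 := nl_mul_le (H - 1) ((H - algebraMap K _ ω) * (H - algebraMap K _ (ω ^ 2)))
  have i2 := nl_mul_le (H - algebraMap K _ ω) (H - algebraMap K _ (ω ^ 2))
  rw [hprod, nl_zero] at i1
  have i3 := hθ ω
  have i4 := hθ (ω ^ 2)
  have i5 := nl_le_rk_gs (T := H) h3K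
  omega

end

theorem gl_all [IsAlgClosed K] (h3 : p % 3 = 2) (h9 : 9 ≤ p) (hpK : (p : K) ≠ 0)
    (h3K : ((3 : ℕ) : K) ≠ 0) {V : Type v} [AddCommGroup V] [Module K V] [FiniteDimensional K V]
    (ρ : Representation K (GL (Fin 2) (ZMod p)) V) :
    finrank K V ≤ 6 * nl (ρ (toGL hh) - 1) := by
  have key := of_simple.{v} (K := K) (ι := Unit) 1 (fun _ => 6)
    (fun _ => gs (1 : K) (MonoidAlgebra.of K _ (toGL hh)) 3) ?_ V ρ
  · simp only [one_mul, alg_gs, Fintype.sum_unique] at key
    refine key.trans (Nat.mul_le_mul_left _ (rk_gs_le ?_))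
    rw [← map_pow, ← map_pow, hh_pow, map_one, map_one]
  intro M _ _ _ σ hσ
  simp only [one_mul, alg_gs, Fintype.sum_unique]
  exact gl_simple hσ h3 h9 hpK h3K

theorem sl_cross [IsAlgClosed K] (h3 : p % 3 = 2) (h9 : 9 ≤ p) (hpK : (p : K) ≠ 0)
    (h3K : ((3 : ℕ) : K) ≠ 0) {V : Type v} [AddCommGroup V] [Module K V] [FiniteDimensional K V]
    (ρ : Representation K (Matrix.SpecialLinearGroup (Fin 2) (ZMod p)) V) :
    finrank K V ≤ 6 * rk (gs (1 : K) (ρ hh) 3) := by
  classical
  choose s hs1 hs2 using fun a => exists_det (p := p) (by omega) a h3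
  let mk : GL (Fin 2) (ZMod p) → (ZMod p)ˣ → Matrix.SpecialLinearGroup (Fin 2) (ZMod p) :=
    fun g a => ⟨((s a)⁻¹ * g * s (a * (Matrix.GeneralLinearGroup.det g)⁻¹) : GL (Fin 2) (ZMod p)),
      by
        rw [← Matrix.GeneralLinearGroup.val_det_apply, map_mul, map_mul, map_inv, hs1, hs1,
          Units.val_eq_one, mul_comm a, mul_assoc, mul_inv_cancel_left, inv_mul_cancel]⟩
  have hmk : ∀ g a, toGL (mk g a) =
      (s a)⁻¹ * g * s (a * (Matrix.GeneralLinearGroup.det g)⁻¹) := fun g a => Units.ext rfl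
  have inj : Function.Injective (toGL : Matrix.SpecialLinearGroup (Fin 2) (ZMod p) → _) :=
    Matrix.SpecialLinearGroup.toGL_injective
  let W : Representation K (GL (Fin 2) (ZMod p)) ((ZMod p)ˣ → V) :=
    { toFun := fun g => LinearMap.pi fun a =>
        ρ (mk g a) ∘ₗ LinearMap.proj (a * (Matrix.GeneralLinearGroup.det g)⁻¹)
      map_one' := by
        ext1 f
        ext x a
        have : mk 1 a = 1 := inj (by rw [hmk]; simp)
        simp [this]
      map_mul' := fun g1 g2 => by
        refine LinearMap.ext fun f => funext fun a => ?_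
        have : mk (g1 * g2) a = mk g1 a * mk g2 (a * (Matrix.GeneralLinearGroup.det g1)⁻¹) := by
          refine inj ?_
          rw [map_mul, hmk, hmk, hmk, map_mul, mul_inv, ← mul_assoc a]
          group
        simp only [End.mul_apply, pi_apply, comp_apply, proj_apply, this, map_mul, mul_inv,
          mul_assoc] }
  have hW : ∀ f a, W (toGL hh) f a = ρ hh (f a) := by
    intro f a
    have hd : Matrix.GeneralLinearGroup.det (toGL (hh : Matrix.SpecialLinearGroup (Fin 2) (ZMod p)))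
      = 1 := Units.ext (by simp)
    have : mk (toGL hh) a = hh := inj (by
      rw [hmk, hd, inv_one, mul_one, mul_assoc, ← hs2, inv_mul_cancel_left])
    change ρ (mk (toGL hh) a) (f (a * (Matrix.GeneralLinearGroup.det (toGL hh))⁻¹)) = _
    rw [this, hd, inv_one, mul_one]
  have i1 := gl_all h3 h9 hpK h3K W
  have i2 : nl (W (toGL hh) - 1) ≤ finrank K ((ZMod p)ˣ → ker (ρ hh - 1)) := by
    let g : ker (W (toGL hh) - 1) →ₗ[K] ((ZMod p)ˣ → ker (ρ hh - 1)) :=
      LinearMap.pi fun a => (LinearMap.proj a ∘ₗ (ker (W (toGL hh) - 1)).subtype).codRestrict _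
        fun f => by
          have := congrFun (mem_ker.mp f.2) a
          rw [LinearMap.sub_apply, Pi.sub_apply, hW] at this
          exact this
    refine finrank_le_finrank_of_injective (f := g) fun x y hxy => Subtype.ext (funext fun a => ?_)
    exact congrArg Subtype.val (congrFun hxy a)
  rw [finrank_pi_fintype, Finset.sum_const, Finset.card_univ, ZMod.card_units, smul_eq_mul] at i1 i2
  have i3 := nl_le_rk_gs (T := ρ hh) h3K
  have i4 : (p - 1) * finrank K V ≤ (p - 1) * (6 * rk (gs (1 : K) (ρ hh) 3)) := by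
    calc _ ≤ 6 * ((p - 1) * nl (ρ hh - 1)) := i1.trans (Nat.mul_le_mul_left _ i2)
      _ ≤ 6 * ((p - 1) * rk (gs (1 : K) (ρ hh) 3)) :=
        Nat.mul_le_mul_left _ (Nat.mul_le_mul_left _ i3)
      _ = _ := by ring
  exact Nat.le_of_mul_le_mul_left i4 (by omega)

end Cfsg.Lib.Hls
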