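import Cfsg.Agent.Hls.Lin

/-!
# Fixed spaces: small configurations
-/

set_option autoImplicit false

namespace Cfsg.Lib.Hls

open Module
open LinearMap hiding smul_apply sub_apply add_apply zero_apply

universe v

variable {K G : Type*} [Field K] [Group G]

section

variable {V : Type*} [AddCommGroup V] [Module K V] [FiniteDimensional K V]

theorem char_le (ρ : Representation K G V) {l : ℕ} [Fact l.Prime] [CharP K l] {g : G}
    (hg : g ^ l = 1) : finrank K V ≤ l * nl (ρ g - 1) := by
  rcases subsingleton_or_nontrivial V with h | h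
  · rw [finrank_zero_of_subsingleton]; omega
  have : CharP (End K V) l := charP_of_injective_algebraMap (algebraMap K _).injective l
  have h1 : (ρ g - 1) ^ l = 0 := by
    rw [sub_pow_char_of_commute _ (Commute.one_right _), ← map_pow, hg, map_one, one_pow, sub_self]
  have := nl_pow_le (ρ g - 1) l
  rwa [h1, nl_zero] at this

theorem invol_le (ρ : Representation K G V) {z z' : G} (hz : z * z = 1) (hz' : z' * z' = 1) :
    finrank K V ≤ nl (ρ z - 1) + nl (ρ z' - 1) + nl (ρ (z * z') - 1) := by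
  have key : ∀ x : G, x * x = 1 → finrank K V ≤ nl (ρ x - 1) + nl (ρ x + 1) := by
    intro x hx
    have h1 : (ρ x - 1) * (ρ x + 1) = 0 := by
      rw [sub_mul, mul_add, mul_add, ← map_mul, hx, map_one]; simp; abel
    have := nl_mul_le (ρ x - 1) (ρ x + 1)
    rwa [h1, nl_zero] at this
  have h1 := key z hz
  have h2 := key z' hz'
  have h3 := Submodule.finrank_sup_add_finrank_inf_eq (ker (ρ z + 1)) (ker (ρ z' + 1))
  have h4 := Submodule.finrank_le (ker (ρ z + 1) ⊔ ker (ρ z' + 1))
  have h5 : finrank K ↥(ker (ρ z + 1) ⊓ ker (ρ z' + 1)) ≤ nl (ρ (z * z') - 1) := by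
    refine Submodule.finrank_mono ?_
    rintro x ⟨hx, hx'⟩
    have e1 : ρ z x = -x := eq_neg_of_add_eq_zero_left hx
    have e2 : ρ z' x = -x := eq_neg_of_add_eq_zero_left hx'
    rw [mem_ker, LinearMap.sub_apply, map_mul, End.mul_apply, e2, map_neg, e1, neg_neg]
    exact sub_self _
  unfold nl at *
  omega

omit [FiniteDimensional K V] in
theorem inv_of_gen [Finite G] (σ : Representation K G V) {S : Set G}
    (hS : Subgroup.closure S = ⊤) (U : Submodule K V) (h : ∀ s ∈ S, ∀ v ∈ U, σ s v ∈ U) :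
    ∀ g, ∀ v ∈ U, σ g v ∈ U := by
  intro g
  have hg : g ∈ Submonoid.closure S := by
    rw [← Subgroup.closure_toSubmonoid_of_finite, hS]; trivial
  induction hg using Submonoid.closure_induction with
  | mem x hx => exact h x hx
  | one => intro v hv; simpa using hv
  | mul x y _ _ hx hy => intro v hv; rw [map_mul]; exact hx _ (hy v hv)

theorem rk_gs_of_fix {T : End K V} {n : ℕ} (hn : (n : K) ≠ 0) (h : ∀ v, T v = v) :
    finrank K V ≤ rk (gs (1 : K) T n) := by
  rw [← finrank_top]
  refine Submodule.finrank_mono (le_trans ?_ (ker_le_range_gs hn))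
  intro v _
  rw [mem_ker, LinearMap.sub_apply, h]; exact sub_self _

theorem rk_gs_le {T : End K V} {n : ℕ} (hT : T ^ n = 1) : rk (gs (1 : K) T n) ≤ nl (T - 1) :=
  Submodule.finrank_mono (range_gs_le hT)

theorem nl_le_rk_gs {T : End K V} {n : ℕ} (hn : (n : K) ≠ 0) :
    nl (T - 1) ≤ rk (gs (1 : K) T n) :=
  Submodule.finrank_mono (ker_le_range_gs hn)

end

theorem closure_pair (a b : G) : Subgroup.closure ({⟨a, Subgroup.subset_closure (by simp)⟩,
    ⟨b, Subgroup.subset_closure (by simp)⟩} : Set (Subgroup.closure ({a, b} : Set G))) = ⊤ := by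
  rw [← Subgroup.closure_closure_coe_preimage (k := ({a, b} : Set G))]
  congr 1
  ext x
  simp [Subtype.ext_iff]

theorem alg_gs {V : Type*} [AddCommGroup V] [Module K V] (ρ : Representation K G V) (c : K)
    (g : G) (n : ℕ) : ρ.asAlgebraHom (gs c (MonoidAlgebra.of K G g) n) = gs c (ρ g) n := by
  rw [map_gs, Representation.asAlgebraHom_of]

theorem pow_eq_one_of_eig {V : Type*} [AddCommGroup V] [Module K V] (ρ : Representation K G V)
    {g : G} {n : ℕ} (hg : g ^ n = 1) {v : V} (h0 : v ≠ 0) {c : K} (h : ρ g v = c • v) :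
    c ^ n = 1 := by
  have h1 : ∀ i : ℕ, ρ (g ^ i) v = c ^ i • v := by
    intro i
    induction i with
    | zero => simp
    | succ i ih => rw [pow_succ', map_mul, End.mul_apply, ih, map_smul, h, smul_smul, pow_succ]
  have h2 := h1 n
  rw [hg, map_one, End.one_apply] at h2
  have : (c ^ n - 1) • v = 0 := by rw [sub_smul, ← h2, one_smul, sub_self]
  exact sub_eq_zero.mp ((smul_eq_zero.mp this).resolve_right h0)

theorem elemAb_aux [IsAlgClosed K] [Finite G] {r : ℕ} (hr : r.Prime) (hrK : (r : K) ≠ 0)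
    {a b : G} (hgen : Subgroup.closure ({a, b} : Set G) = ⊤) (ha : a ^ r = 1) (hb : b ^ r = 1)
    (hab : Commute a b) {V : Type v} [AddCommGroup V] [Module K V] [FiniteDimensional K V]
    (ρ : Representation K G V) :
    finrank K V ≤ nl (ρ b - 1) + ∑ i ∈ Finset.range r, nl (ρ (a * b ^ i) - 1) := by
  have hc : ∀ x : G, Commute x a → Commute x b → ∀ g, x * g = g * x := by
    intro x h1 h2 g
    have : Subgroup.closure ({a, b} : Set G) ≤ Subgroup.centralizer {x} := by
      rw [Subgroup.closure_le]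
      rintro _ (rfl | rfl)
      · exact Subgroup.mem_centralizer_singleton_iff.mpr h1.symm.eq
      · exact Subgroup.mem_centralizer_singleton_iff.mpr h2.symm.eq
    exact (Subgroup.mem_centralizer_singleton_iff.mp (this (hgen ▸ Subgroup.mem_top g))).symm
  have key := of_simple.{v} (K := K) (ι := Option (Fin r)) 1 (fun _ => 1)
    (fun o => gs (1 : K) (MonoidAlgebra.of K G (o.elim b fun i => a * b ^ (i : ℕ))) r) ?_ V ρ
  · simp only [one_mul, alg_gs, Fintype.sum_option, Option.elim] at key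
    refine key.trans (Nat.add_le_add (rk_gs_le (by rw [← map_pow, hb, map_one])) ?_)
    rw [← Fin.sum_univ_eq_sum_range (fun i => nl (ρ (a * b ^ i) - 1))]
    refine Finset.sum_le_sum fun i _ => rk_gs_le ?_
    rw [← map_pow, (hab.pow_right i).mul_pow, ha, ← pow_mul, mul_comm, pow_mul, hb, one_pow,
      one_mul, map_one]
  intro M _ _ _ σ hσ
  simp only [one_mul, alg_gs, Fintype.sum_option, Option.elim]
  obtain ⟨α, hα⟩ := hσ.schur (σ a) fun g v => by
    rw [← End.mul_apply, ← map_mul, hc a (Commute.refl a) hab, map_mul, End.mul_apply]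
  obtain ⟨β, hβ⟩ := hσ.schur (σ b) fun g v => by
    rw [← End.mul_apply, ← map_mul, hc b hab.symm (Commute.refl b), map_mul, End.mul_apply]
  have := hσ.nt
  obtain ⟨x, hx⟩ := exists_ne (0 : M)
  have h1 := pow_eq_one_of_eig σ ha hx (hα x)
  have h2 := pow_eq_one_of_eig σ hb hx (hβ x)
  by_cases hb1 : β = 1
  · exact (rk_gs_of_fix hrK fun v => by rw [hβ, hb1, one_smul]).trans (Nat.le_add_right _ _)
  have := Fact.mk hr
  have hprim : IsPrimitiveRoot β r := by
    rw [← orderOf_eq_prime h2 hb1]; exact IsPrimitiveRoot.orderOf β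
  have : NeZero r := ⟨hr.ne_zero⟩
  obtain ⟨i, hi, hi2⟩ := hprim.eq_pow_of_pow_eq_one (ξ := α⁻¹) (by rw [inv_pow, h1, inv_one])
  have hα0 : α ≠ 0 := by
    rintro rfl
    rw [zero_pow hr.ne_zero] at h1
    exact zero_ne_one h1
  refine le_trans ?_ (Nat.le_add_left _ _)
  refine le_trans ?_ (Finset.single_le_sum (f := fun i : Fin r =>
    rk (gs (1 : K) (σ (a * b ^ (i : ℕ))) r)) (fun _ _ => Nat.zero_le _) (Finset.mem_univ ⟨i, hi⟩))
  refine rk_gs_of_fix hrK fun v => ?_
  have h3 : ∀ j : ℕ, σ (b ^ j) v = β ^ j • v := by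
    intro j
    induction j with
    | zero => simp
    | succ j ih => rw [pow_succ', map_mul, End.mul_apply, ih, map_smul, hβ, smul_smul, pow_succ]
  rw [map_mul, End.mul_apply, h3, hi2, map_smul, hα, smul_smul, inv_mul_cancel₀ hα0, one_smul]

theorem elemAb_le [IsAlgClosed K] [Finite G] {r : ℕ} (hr : r.Prime) (hrK : (r : K) ≠ 0)
    {a b : G} (ha : a ^ r = 1) (hb : b ^ r = 1)
    (hab : Commute a b) {V : Type v} [AddCommGroup V] [Module K V] [FiniteDimensional K V]
    (ρ : Representation K G V) :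
    finrank K V ≤ nl (ρ b - 1) + ∑ i ∈ Finset.range r, nl (ρ (a * b ^ i) - 1) :=
  elemAb_aux hr hrK (closure_pair a b) (Subtype.ext ha) (Subtype.ext hb) (Subtype.ext hab)
    (ρ.comp (Subgroup.closure ({a, b} : Set G)).subtype)

theorem frob_aux [IsAlgClosed K] [Finite G] {m : ℕ} (hm : m.Coprime 3) (hmK : (m : K) ≠ 0)
    {a h : G} (hgen : Subgroup.closure ({a, h} : Set G) = ⊤) (ha : a ^ m = 1) (hh : h ^ 3 = 1)
    (hc : Commute a (h * a * h⁻¹))
    (hp : a * (h * a * h⁻¹) * (h * (h * a * h⁻¹) * h⁻¹) = 1)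
    {V : Type v} [AddCommGroup V] [Module K V] [FiniteDimensional K V]
    (ρ : Representation K G V) :
    finrank K V ≤ rk (gs (1 : K) (ρ a) m) + 3 * rk (gs (1 : K) (ρ h) 3) := by
  have key := of_simple.{v} (K := K) (ι := Fin 2) 1 ![1, 3]
    ![gs (1 : K) (MonoidAlgebra.of K G a) m, gs (1 : K) (MonoidAlgebra.of K G h) 3] ?_ V ρ
  · simpa [alg_gs, -MonoidAlgebra.of_apply] using key
  intro M _ _ _ σ hσ
  simp only [one_mul, Fin.sum_univ_two, Matrix.cons_val_zero, Matrix.cons_val_one, alg_gs]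
  have := hσ.nt
  set a' := h * a * h⁻¹ with ha'
  set a'' := h * a' * h⁻¹ with ha''
  obtain ⟨α, hα⟩ := End.exists_eigenvalue (σ a)
  have hW : ∀ x ∈ End.eigenspace (σ a) α, σ a' x ∈ End.eigenspace (σ a) α := by
    intro x hx
    rw [End.mem_eigenspace_iff] at hx ⊢
    rw [← End.mul_apply, ← map_mul, hc.eq, map_mul, End.mul_apply, hx, map_smul]
  have : Nontrivial (End.eigenspace (σ a) α) := Submodule.nontrivial_iff_ne_bot.mpr hα
  obtain ⟨β, hβ⟩ := End.exists_eigenvalue ((σ a').restrict hW)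
  obtain ⟨⟨x, hx⟩, hx1, hx2⟩ := hβ.exists_hasEigenvector
  have hx0 : x ≠ 0 := fun h => hx2 (Subtype.ext h)
  have e1 : σ a x = α • x := End.mem_eigenspace_iff.mp hx
  have e2 : σ a' x = β • x := congrArg Subtype.val (End.mem_eigenspace_iff.mp hx1)
  have hinj : ∀ g y, σ g y = 0 → y = 0 := by
    intro g y hy
    have := congrArg (σ g⁻¹) hy
    rwa [← End.mul_apply, ← map_mul, inv_mul_cancel, map_one, map_zero] at this
  have hh3 : h * h * h = 1 := by rw [← hh, pow_succ, pow_two]
  have hαβ : α * β ≠ 0 := by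
    intro h0
    refine hx0 (hinj (a * a') x ?_)
    rw [map_mul, End.mul_apply, e2, map_smul, e1, smul_smul, mul_comm, h0, zero_smul]
  set γ := (α * β)⁻¹ with hγ
  have e3 : σ a'' x = γ • x := by
    have h1 : σ (a * a') (σ a'' x - γ • x) = 0 := by
      rw [map_sub, ← End.mul_apply, ← map_mul, hp, map_one, map_smul, map_mul, End.mul_apply, e2,
        map_smul, e1, smul_smul, smul_smul, mul_assoc, mul_comm β, inv_mul_cancel₀ hαβ, one_smul]
      exact sub_self _
    exact sub_eq_zero.mp (hinj _ _ h1)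
  have r1 : a * h = h * a'' := by
    rw [ha'', ha']
    calc a * h = (h * h * h) * a * (h * h * h)⁻¹ * h := by rw [hh3]; group
      _ = _ := by group
  have r2 : a'' * h = h * a' := by rw [ha'']; group
  have f1 : σ a (σ h x) = γ • σ h x := by
    rw [← End.mul_apply, ← map_mul, r1, map_mul, End.mul_apply, e3, map_smul]
  have f2 : σ a (σ h (σ h x)) = β • σ h (σ h x) := by
    rw [← End.mul_apply, ← map_mul, r1, map_mul, End.mul_apply, ← End.mul_apply (σ a''), ← map_mul,
      r2, map_mul, End.mul_apply, e2, map_smul, map_smul]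
  have f3 : σ h (σ h (σ h x)) = x := by
    rw [← End.mul_apply, ← End.mul_apply, ← map_mul, ← map_mul, hh3, map_one, End.one_apply]
  let U := Submodule.span K (Set.range ![x, σ h x, σ h (σ h x)])
  have m0 : x ∈ U := Submodule.subset_span ⟨0, rfl⟩
  have m1 : σ h x ∈ U := Submodule.subset_span ⟨1, rfl⟩
  have m2 : σ h (σ h x) ∈ U := Submodule.subset_span ⟨2, rfl⟩
  have hU : U = ⊤ := by
    refine hσ.top (inv_of_gen σ hgen U ?_) m0 hx0
    intro s hs
    suffices h : U ≤ U.comap (σ s) from fun v hv => h hv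
    refine Submodule.span_le.mpr ?_
    rintro _ ⟨i, rfl⟩
    rcases hs with rfl | rfl
    · fin_cases i
      · change σ s x ∈ U
        rw [e1]; exact U.smul_mem _ m0
      · change σ s (σ h x) ∈ U
        rw [f1]; exact U.smul_mem _ m1
      · change σ s (σ h (σ h x)) ∈ U
        rw [f2]; exact U.smul_mem _ m2
    · fin_cases i
      · exact m1
      · exact m2
      · change σ s (σ s (σ s x)) ∈ U
        rw [f3]; exact m0
  have hN : finrank K M ≤ 3 := by
    rw [← finrank_top, ← hU]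
    exact (finrank_range_le_card (R := K) ![x, σ h x, σ h (σ h x)]).trans (by simp)
  by_cases hs : x + σ h x + σ h (σ h x) = 0
  swap
  · have : 1 ≤ rk (gs (1 : K) (σ h) 3) := by
      refine one_le_of_mem (x := x + σ h x + σ h (σ h x)) ⟨x, ?_⟩ hs
      simp [gs, Finset.sum_range_succ, pow_succ]
    omega
  have hx1 : σ h x ≠ 0 := fun h0 => hx0 (hinj _ _ h0)
  have hx2 : σ h (σ h x) ≠ 0 := fun h0 => hx1 (hinj _ _ h0)
  have hs2 := congrArg (σ a) hs
  rw [map_add, map_add, e1, f1, f2, map_zero] at hs2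
  have hs3 : (α - β) • x + (γ - β) • σ h x = 0 := by
    have : σ h (σ h x) = -(x + σ h x) := eq_neg_of_add_eq_zero_right hs
    rw [this] at hs2
    rw [← hs2]; module
  have cancel : ∀ (c d : K) (y : M), y ≠ 0 → c • y = d • y → c = d := by
    intro c d y hy h
    have : (c - d) • y = 0 := by rw [sub_smul, h, sub_self]
    exact sub_eq_zero.mp ((smul_eq_zero.mp this).resolve_right hy)
  have hγβ : γ = β := by
    by_contra hne
    have hne' : γ - β ≠ 0 := sub_ne_zero.mpr hne
    obtain ⟨c, hc⟩ : ∃ c : K, σ h x = c • x := by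
      refine ⟨-((γ - β)⁻¹ * (α - β)), ?_⟩
      have : (γ - β) • σ h x = -((α - β) • x) := eq_neg_of_add_eq_zero_right hs3
      rw [neg_smul, mul_smul, ← smul_neg, ← this, smul_smul, inv_mul_cancel₀ hne', one_smul]
    have h2 : σ h (σ h x) = c • σ h x := by rw [hc, map_smul, hc]
    refine hne (cancel _ _ _ hx2 ?_)
    rw [← f2, h2, map_smul, f1, smul_comm]
  have hαβ' : α = β := by
    rw [hγβ, sub_self, zero_smul, add_zero] at hs3
    exact sub_eq_zero.mp ((smul_eq_zero.mp hs3).resolve_right hx0)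
  have hβ3 : β ^ 3 = 1 := by
    have : γ * (α * β) = 1 := inv_mul_cancel₀ hαβ
    rw [hγβ, hαβ'] at this
    rw [← this]; ring
  have hβm : β ^ m = 1 := hαβ' ▸ pow_eq_one_of_eig σ ha hx0 e1
  have hβ1 : β = 1 := by
    have := pow_gcd_eq_one.mpr ⟨hβm, hβ3⟩
    rwa [hm.gcd_eq_one, pow_one] at this
  have hfix : U ≤ ker (σ a - 1) := by
    refine Submodule.span_le.mpr ?_
    rintro _ ⟨i, rfl⟩
    fin_cases i
    · change σ a x - x = 0
      rw [e1, hαβ', hβ1, one_smul, sub_self]
    · change σ a (σ h x) - σ h x = 0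
      rw [f1, hγβ, hβ1, one_smul, sub_self]
    · change σ a (σ h (σ h x)) - σ h (σ h x) = 0
      rw [f2, hβ1, one_smul, sub_self]
  refine (rk_gs_of_fix hmK fun v => ?_).trans (Nat.le_add_right _ _)
  exact sub_eq_zero.mp (hfix (hU ▸ Submodule.mem_top : v ∈ U))

theorem frob_le [IsAlgClosed K] [Finite G] {m : ℕ} (hm : m.Coprime 3) (hmK : (m : K) ≠ 0)
    {a h : G} (ha : a ^ m = 1) (hh : h ^ 3 = 1)
    (hc : Commute a (h * a * h⁻¹))
    (hp : a * (h * a * h⁻¹) * (h * (h * a * h⁻¹) * h⁻¹) = 1)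
    {V : Type v} [AddCommGroup V] [Module K V] [FiniteDimensional K V]
    (ρ : Representation K G V) :
    finrank K V ≤ rk (gs (1 : K) (ρ a) m) + 3 * rk (gs (1 : K) (ρ h) 3) :=
  frob_aux hm hmK (closure_pair a h) (Subtype.ext ha) (Subtype.ext hh) (Subtype.ext hc)
    (Subtype.ext hp) (ρ.comp (Subgroup.closure ({a, h} : Set G)).subtype)

end Cfsg.Lib.Hls
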