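import Cfsg.Agent.Hls.Frob

/-!
# Fixed spaces: multiplicity one for the non-split torus of `GL₂(p)`
-/

set_option autoImplicit false

namespace Cfsg.Lib.Hls

open Module
open LinearMap hiding smul_apply sub_apply add_apply zero_apply

universe v

section GK

variable {K G : Type*} [Field K] [Group G]
variable {M : Type*} [AddCommGroup M] [Module K M] [FiniteDimensional K M]

omit [FiniteDimensional K M] in
theorem rep_pow_eig (σ : Representation K G M) {s : G} {ν : K} {v : M} (h : σ s v = ν • v)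
    (m : ℕ) : σ (s ^ m) v = ν ^ m • v := by
  induction m with
  | zero => simp
  | succ i ih => rw [pow_succ', map_mul, End.mul_apply, ih, map_smul, h, smul_smul, pow_succ]

omit [FiniteDimensional K M] in
theorem rep_inj (σ : Representation K G M) (g : G) {y : M} (hy : σ g y = 0) : y = 0 := by
  have := congrArg (σ g⁻¹) hy
  rwa [← End.mul_apply, ← map_mul, inv_mul_cancel, map_one, map_zero] at this

theorem gk [IsAlgClosed K] {σ : Representation K G M} (hσ : Sim σ) (τ : G → G)
    (hτ : ∀ x y, τ (x * y) = τ y * τ x) (hτ2 : Function.Surjective τ) (s : G)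
    (hs : ∀ g, ∃ m : ℕ, τ g * s ^ m = s ^ m * g) (ν : K) :
    nl (σ s - algebraMap K _ ν) ≤ 1 := by
  have mem : ∀ v, v ∈ ker (σ s - algebraMap K _ ν) ↔ σ s v = ν • v := by
    intro v
    rw [mem_ker, LinearMap.sub_apply, sub_eq_zero, Module.algebraMap_end_apply]
  by_cases hk : ker (σ s - algebraMap K _ ν) = ⊥
  · unfold nl
    rw [hk, finrank_bot]; omega
  obtain ⟨v, hv, hv0⟩ := Submodule.exists_mem_ne_zero_of_ne_bot hk
  have hr : range (σ s - algebraMap K _ ν) < ⊤ := by
    rw [lt_top_iff_ne_top]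
    intro h
    exact hk (ker_eq_bot_iff_range_eq_top.mpr h)
  obtain ⟨φ, hφ0, hφ⟩ := Submodule.exists_le_ker_of_lt_top _ hr
  have hφ1 : ∀ x, φ (σ s x) = ν * φ x := by
    intro x
    have : φ ((σ s - algebraMap K _ ν) x) = 0 := hφ ⟨x, rfl⟩
    rw [LinearMap.sub_apply, Module.algebraMap_end_apply, map_sub, map_smul, sub_eq_zero] at this
    exact this
  have hφ2 : ∀ (m : ℕ) x, φ (σ (s ^ m) x) = ν ^ m * φ x := by
    intro m
    induction m with
    | zero => simp
    | succ i ih => intro x; rw [pow_succ', map_mul, End.mul_apply, hφ1, ih]; ring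
  have hν : ν ≠ 0 := by
    rintro rfl
    exact hv0 (rep_inj σ s (by rw [(mem v).mp hv, zero_smul]))
  have key : ∀ w, σ s w = ν • w → ∀ g, φ (σ (τ g) w) = φ (σ g w) := by
    intro w hw g
    obtain ⟨m, hm⟩ := hs g
    have h1 : φ (σ (τ g * s ^ m) w) = φ (σ (s ^ m * g) w) := by rw [hm]
    rw [map_mul, map_mul, End.mul_apply, End.mul_apply, rep_pow_eig σ hw, hφ2, map_smul,
      map_smul, smul_eq_mul] at h1
    exact mul_left_cancel₀ (pow_ne_zero m hν) h1
  let L : M → (G →₀ K) →ₗ[K] M := fun w => Finsupp.linearCombination K fun g => σ g w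
  have Ls : ∀ w g, L w (Finsupp.single g 1) = σ g w := fun w g => by simp [L]
  have hsurj : range (L v) = ⊤ := by
    refine hσ.top (x := v) ?_ ⟨Finsupp.single 1 1, by rw [Ls]; simp⟩ hv0
    rintro g _ ⟨a, rfl⟩
    induction a using Finsupp.induction_linear with
    | zero => simp
    | add a b ha hb => rw [map_add, map_add]; exact Submodule.add_mem _ ha hb
    | single x c =>
      refine ⟨Finsupp.single (g * x) c, ?_⟩
      simp [L]
  have hsep : ∀ y, (∀ g, φ (σ g y) = 0) → y = 0 := by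
    intro y hy
    by_contra h0
    let U : Submodule K M := ⨅ g, ker (φ ∘ₗ σ g)
    have hU : ∀ z, z ∈ U ↔ ∀ g, φ (σ g z) = 0 := fun z => by simp [U]
    have : U = ⊤ := by
      refine hσ.top (fun g z hz => ?_) ((hU y).mpr hy) h0
      rw [hU] at hz ⊢
      intro x
      rw [← End.mul_apply, ← map_mul]; exact hz _
    apply hφ0
    ext z
    simpa using (hU z).mp (this ▸ Submodule.mem_top) 1
  refine finrank_le_one ⟨v, hv⟩ ?_
  rintro ⟨w, hw⟩
  have hker : ∀ a, L v a = 0 → L w a = 0 := by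
    intro a ha
    let ψ : M →ₗ[K] K := Finsupp.linearCombination K (fun x => φ ∘ₗ σ (τ x)) a
    have e : ∀ z, σ s z = ν • z → ∀ g, ψ (σ (τ g) z) = φ (σ g (L z a)) := by
      intro z hz g
      simp only [ψ, L]
      clear ha ψ
      induction a using Finsupp.induction_linear with
      | zero => simp
      | add a b ha hb => simp only [map_add, LinearMap.add_apply, ha, hb]
      | single x c =>
        simp only [Finsupp.linearCombination_single, LinearMap.smul_apply, comp_apply, map_smul]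
        rw [← End.mul_apply, ← map_mul, ← hτ, key z hz, map_mul, End.mul_apply]
    have hψ : ψ = 0 := by
      ext z
      obtain ⟨b, rfl⟩ : z ∈ range (L v) := hsurj ▸ Submodule.mem_top
      induction b using Finsupp.induction_linear with
      | zero => simp
      | add a b ha hb => rw [map_add, map_add, ha, hb]; simp
      | single x c =>
        obtain ⟨g, rfl⟩ := hτ2 x
        have := e v ((mem v).mp hv) g
        rw [ha, map_zero, map_zero] at this
        simp [L, this]
    refine hsep _ fun g => ?_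
    rw [← e w ((mem w).mp hw) g, hψ]; rfl
  obtain ⟨t, ht⟩ := exists_rightInverse_of_surjective (L v) hsurj
  have hf : ∀ a, (L w ∘ₗ t) (L v a) = L w a := by
    intro a
    have h1 : L v (t (L v a) - a) = 0 := by
      rw [map_sub, ← comp_apply, ht, id_apply, sub_self]
    have h2 := hker _ h1
    rwa [map_sub, sub_eq_zero] at h2
  obtain ⟨c, hc⟩ := hσ.schur (L w ∘ₗ t) fun g z => by
    obtain ⟨b, rfl⟩ : z ∈ range (L v) := hsurj ▸ Submodule.mem_top
    rw [hf]
    induction b using Finsupp.induction_linear with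
    | zero => simp
    | add a b ha hb => simp only [map_add, ha, hb]
    | single x c =>
      have h1 : σ g (L v (Finsupp.single x c)) = L v (Finsupp.single (g * x) c) := by simp [L]
      rw [h1, hf]
      simp [L]
  refine ⟨c, Subtype.ext ?_⟩
  have h1 := hf (Finsupp.single 1 1)
  rw [Ls, Ls, map_one, End.one_apply, End.one_apply, hc] at h1
  exact h1

end GK

section SL

variable {F : Type*} [Field F]

/-- upper unitriangular matrices -/
def uu (a : F) : Matrix.SpecialLinearGroup (Fin 2) F := ⟨!![1, a; 0, 1], by simp⟩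

/-- the Weyl element -/
def ww : Matrix.SpecialLinearGroup (Fin 2) F := ⟨!![0, -1; 1, 0], by simp⟩

/-- diagonal matrices -/
def tt (a : Fˣ) : Matrix.SpecialLinearGroup (Fin 2) F := ⟨!![a, 0; 0, (a⁻¹ : Fˣ)], by simp⟩

/-- an element of order three -/
def hh : Matrix.SpecialLinearGroup (Fin 2) F := ⟨!![0, -1; 1, -1], by simp⟩

@[simp] theorem uu_val (a : F) : (uu a).1 = !![1, a; 0, 1] := rfl

@[simp] theorem ww_val : (ww : Matrix.SpecialLinearGroup (Fin 2) F).1 = !![0, -1; 1, 0] := rfl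

@[simp] theorem tt_val (a : Fˣ) : (tt a).1 = !![(a : F), 0; 0, (a⁻¹ : Fˣ)] := rfl

@[simp] theorem hh_val : (hh : Matrix.SpecialLinearGroup (Fin 2) F).1 = !![0, -1; 1, -1] := rfl

theorem uu_add (a b : F) : uu (a + b) = uu a * uu b := by
  ext i j; fin_cases i <;> fin_cases j <;> simp [Matrix.mul_apply, add_comm]

theorem uu_zero : uu (0 : F) = 1 := by
  ext i j; fin_cases i <;> fin_cases j <;> simp

theorem uu_pow (a : F) (n : ℕ) : uu a ^ n = uu (n * a) := by
  induction n with
  | zero => simp [uu_zero]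
  | succ n ih => rw [pow_succ, ih, ← uu_add]; congr 1; push_cast; ring

theorem uu_inj {a b : F} (h : uu a = uu b) : a = b := by
  simpa using congrArg (fun x : Matrix.SpecialLinearGroup (Fin 2) F => x 0 1) h

theorem tt_mul (a b : Fˣ) : tt (a * b) = tt a * tt b := by
  ext i j; fin_cases i <;> fin_cases j <;> simp [Matrix.mul_apply, mul_comm]

theorem tt_one : tt (1 : Fˣ) = 1 := by
  ext i j; fin_cases i <;> fin_cases j <;> simp

theorem tt_pow (a : Fˣ) (n : ℕ) : tt a ^ n = tt (a ^ n) := by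
  induction n with
  | zero => simp [tt_one]
  | succ n ih => rw [pow_succ, ih, ← tt_mul, pow_succ]

theorem tt_uu (a : Fˣ) (b : F) : tt a * uu b = uu (a ^ 2 * b) * tt a := by
  ext i j; fin_cases i <;> fin_cases j <;> simp [Matrix.mul_apply]
  field_simp

theorem hh_pow : (hh : Matrix.SpecialLinearGroup (Fin 2) F) ^ 3 = 1 := by
  ext i j; fin_cases i <;> fin_cases j <;> simp [Matrix.mul_apply, pow_succ]

theorem hh_ne : (hh : Matrix.SpecialLinearGroup (Fin 2) F) ≠ 1 := fun h => by
  simpa using congrArg (fun x : Matrix.SpecialLinearGroup (Fin 2) F => x 1 0) h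

theorem hh_ww : (hh : Matrix.SpecialLinearGroup (Fin 2) F) * ww =
    uu (-1) * (ww * uu (-1)) * (ww⁻¹ * uu (-2) * ww) := by
  ext i j; fin_cases i <;> fin_cases j <;>
    simp [Matrix.mul_apply, Matrix.SpecialLinearGroup.coe_inv, Matrix.adjugate_fin_two]
  all_goals norm_num

/-- the anti-automorphism fixing the non-split torus -/
def tM (A : Matrix (Fin 2) (Fin 2) F) : Matrix (Fin 2) (Fin 2) F :=
  !![A 0 0, -A 1 0; -A 0 1, A 1 1]

theorem tM_mul (A B : Matrix (Fin 2) (Fin 2) F) : tM (A * B) = tM B * tM A := by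
  ext i j; fin_cases i <;> fin_cases j <;> simp [tM, Matrix.mul_apply] <;> ring

theorem tM_one : tM (1 : Matrix (Fin 2) (Fin 2) F) = 1 := by
  ext i j; fin_cases i <;> fin_cases j <;> simp [tM]

theorem tM_tM (A : Matrix (Fin 2) (Fin 2) F) : tM (tM A) = A := by
  ext i j; fin_cases i <;> fin_cases j <;> simp [tM]

/-- the anti-automorphism on the general linear group -/
def tG (g : GL (Fin 2) F) : GL (Fin 2) F :=
  ⟨tM g, tM (g⁻¹ : GL (Fin 2) F), by rw [← tM_mul, Units.inv_mul, tM_one],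
    by rw [← tM_mul, Units.mul_inv, tM_one]⟩

theorem tG_mul (x y : GL (Fin 2) F) : tG (x * y) = tG y * tG x :=
  Units.ext (tM_mul _ _)

theorem tG_surj : Function.Surjective (tG : GL (Fin 2) F → _) :=
  fun g => ⟨tG g, Units.ext (tM_tM _)⟩

/-- the quadratic extension -/
abbrev EE (F : Type*) [Field F] := QuadraticAlgebra F (-1) (-1)

/-- its embedding in the matrices -/
noncomputable def eM : EE F →ₐ[F] Matrix (Fin 2) (Fin 2) F :=
  QuadraticAlgebra.lift ⟨!![0, -1; 1, -1], by
    ext i j; fin_cases i <;> fin_cases j <;> simp⟩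

theorem eM_apply (x : EE F) : eM x = !![x.re, -x.im; x.im, x.re - x.im] := by
  ext i j; fin_cases i <;> fin_cases j <;> simp [eM, sub_eq_add_neg]

/-- the non-split torus -/
noncomputable def eG : (EE F)ˣ →* GL (Fin 2) F := Units.map eM.toMonoidHom

theorem eG_val (x : (EE F)ˣ) : (eG x : Matrix (Fin 2) (Fin 2) F) = eM (x : EE F) := rfl

theorem exists_conj [Fact (∀ r : F, r ^ 2 ≠ -1 + -1 * r)] (g : GL (Fin 2) F) :
    ∃ e : (EE F)ˣ, tG g * eG e = eG e * g := by
  by_cases h : g 0 1 + g 1 0 = 0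
  · refine ⟨1, ?_⟩
    rw [map_one, mul_one, one_mul]
    ext i j; fin_cases i <;> fin_cases j <;> simp [tG, tM]
    · linear_combination -h
    · linear_combination -h
  · have h0 : (⟨g 1 0 + g 1 1 - g 0 0, g 0 1 + g 1 0⟩ : EE F) ≠ 0 :=
      fun h0 => h (congrArg QuadraticAlgebra.im h0)
    refine ⟨Units.mk0 _ h0, Units.ext ?_⟩
    rw [Units.val_mul, Units.val_mul, eG_val, eM_apply]
    ext i j; fin_cases i <;> fin_cases j <;> simp [tG, tM, Matrix.mul_apply] <;> ring

end SL

section P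

variable {p : ℕ} [hp : Fact p.Prime]

theorem irr_of_mod (h3 : p % 3 = 2) (r : ZMod p) : r ^ 2 ≠ -1 + -1 * r := by
  intro h
  have h1 : r ^ 3 = 1 := by linear_combination (r - 1) * h
  have h0 : r ≠ 0 := by
    rintro rfl
    simp at h1
  have h2 := ZMod.pow_card_sub_one_eq_one h0
  obtain ⟨k, hk⟩ : ∃ k, p - 1 = 3 * k + 1 := ⟨p / 3, by omega⟩
  rw [hk, pow_succ, pow_mul, h1, one_pow, one_mul] at h2
  subst h2
  have h4 : ((3 : ℕ) : ZMod p) = 0 := by push_cast; linear_combination h
  rw [ZMod.natCast_eq_zero_iff] at h4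
  have := (Nat.prime_dvd_prime_iff_eq hp.out Nat.prime_three).mp h4
  omega

theorem exists_torus (h3 : p % 3 = 2) : ∃ s : GL (Fin 2) (ZMod p),
    (∀ g, ∃ m : ℕ, tG g * s ^ m = s ^ m * g) ∧ ∃ (c : GL (Fin 2) (ZMod p)) (i : ℕ),
      (∀ g, c * g = g * c) ∧
      s ^ ((p + 1) / 3) = c * (Matrix.SpecialLinearGroup.toGL hh) ^ i := by
  have : Fact (∀ r : ZMod p, r ^ 2 ≠ -1 + -1 * r) := ⟨irr_of_mod h3⟩
  have : Finite (EE (ZMod p)) := Finite.of_equiv _ (QuadraticAlgebra.equivProd _ _).symm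
  have : CharP (EE (ZMod p)) p :=
    charP_of_injective_algebraMap (algebraMap (ZMod p) _).injective p
  obtain ⟨g0, hg0⟩ := IsCyclic.exists_monoid_generator (α := (EE (ZMod p))ˣ)
  refine ⟨eG g0, fun g => ?_, ?_⟩
  · obtain ⟨e, he⟩ := exists_conj g
    obtain ⟨m, rfl⟩ := hg0 e
    exact ⟨m, by rw [← map_pow]; exact he⟩
  set o : EE (ZMod p) := QuadraticAlgebra.omega with ho
  have o2 : o ^ 2 + o + 1 = 0 := by
    rw [pow_two, ho, QuadraticAlgebra.omega_mul_omega_eq_mk]
    ext <;> simp [QuadraticAlgebra.re_one, QuadraticAlgebra.im_one]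
  have o3 : o ^ 3 = 1 := by linear_combination (o - 1) * o2
  obtain ⟨k, hk⟩ : ∃ k, p = 3 * k + 2 := ⟨p / 3, by omega⟩
  have op : o ^ p = o ^ 2 := by
    have : ∀ n, n = 3 * k + 2 → o ^ n = o ^ 2 := by
      rintro _ rfl
      rw [pow_add, pow_mul, o3, one_pow, one_mul]
    exact this p hk
  have hN : ∀ x : EE (ZMod p), ∃ c : ZMod p, x ^ (p + 1) = algebraMap _ _ c := by
    intro x
    have e : x = algebraMap _ _ x.re + algebraMap _ _ x.im * o := by
      rw [← Algebra.smul_def]; exact QuadraticAlgebra.mk_eq_add_smul_omega x.re x.im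
    refine ⟨x.re ^ 2 - x.re * x.im + x.im ^ 2, ?_⟩
    have e2 : x ^ p = algebraMap _ _ x.re + algebraMap _ _ x.im * o ^ 2 := by
      conv_lhs => rw [e]
      rw [add_pow_char, mul_pow, ← map_pow, ← map_pow, ZMod.pow_card, ZMod.pow_card, op]
    rw [pow_succ, e2]
    simp only [map_add, map_sub, map_mul, map_pow]
    generalize algebraMap (ZMod p) (EE (ZMod p)) x.re = a at e
    generalize algebraMap (ZMod p) (EE (ZMod p)) x.im = b at e
    linear_combination (a * b + b ^ 2 * (o - 1)) * o2 + (a + b * o ^ 2) * e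
  obtain ⟨c, hc⟩ := hN g0
  have hc0 : c ≠ 0 := by
    rintro rfl
    rw [map_zero] at hc
    exact pow_ne_zero _ g0.ne_zero hc
  set γ : EE (ZMod p) := (g0 : EE (ZMod p)) ^ ((p + 1) / 3) with hγ
  have γ3 : γ ^ 3 = algebraMap _ _ c := by
    rw [hγ, ← pow_mul, ← hc]; congr 1; omega
  have δ3 : (γ ^ (p - 1)) ^ 3 = 1 := by
    rw [← pow_mul, mul_comm, pow_mul, γ3, ← map_pow, ZMod.pow_card_sub_one_eq_one hc0, map_one]
  obtain ⟨i, hi⟩ : ∃ i : ℕ, γ ^ (p - 1) = o ^ i := by
    have : (γ ^ (p - 1) - o ^ 0) * ((γ ^ (p - 1) - o ^ 1) * (γ ^ (p - 1) - o ^ 2)) = 0 := by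
      generalize γ ^ (p - 1) = d at δ3
      linear_combination δ3 + (-d ^ 2 + d * o - o + 1) * o2
    rcases mul_eq_zero.mp this with h | h
    · exact ⟨0, sub_eq_zero.mp h⟩
    rcases mul_eq_zero.mp h with h | h
    · exact ⟨1, sub_eq_zero.mp h⟩
    · exact ⟨2, sub_eq_zero.mp h⟩
  have hγ2 : γ = algebraMap _ _ (c ^ k)⁻¹ * o ^ i := by
    have e : p - 1 = 3 * k + 1 := by omega
    rw [← hi, e, pow_succ, pow_mul, γ3, ← map_pow, ← mul_assoc, ← map_mul,
      inv_mul_cancel₀ (pow_ne_zero k hc0), map_one, one_mul]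
  refine ⟨Units.map (algebraMap (ZMod p) (Matrix (Fin 2) (Fin 2) (ZMod p))).toMonoidHom
    (Units.mk0 _ (inv_ne_zero (pow_ne_zero k hc0))), i, fun g => Units.ext ?_, Units.ext ?_⟩
  · exact Algebra.commutes _ _
  · rw [← map_pow, eG_val, Units.val_pow_eq_pow_val, ← hγ, hγ2, map_mul, map_pow, AlgHom.commutes,
      Units.val_mul, Units.val_pow_eq_pow_val]
    congr 2
    rw [eM_apply, ho]
    ext i j; fin_cases i <;> fin_cases j <;> simp

theorem exists_det (h2 : p ≠ 2) (a : (ZMod p)ˣ) (h3 : p % 3 = 2) : ∃ s : GL (Fin 2) (ZMod p),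
    Matrix.GeneralLinearGroup.det s = a ∧
      s * Matrix.SpecialLinearGroup.toGL hh = Matrix.SpecialLinearGroup.toGL hh * s := by
  classical
  have h3' : (3 : ZMod p) ≠ 0 := by
    intro h
    have h4 : ((3 : ℕ) : ZMod p) = 0 := by exact_mod_cast h
    rw [ZMod.natCast_eq_zero_iff] at h4
    have := (Nat.prime_dvd_prime_iff_eq hp.out Nat.prime_three).mp h4
    omega
  have h2' : (2 : ZMod p) ≠ 0 := by
    intro h
    have h4 : ((2 : ℕ) : ZMod p) = 0 := by exact_mod_cast h
    rw [ZMod.natCast_eq_zero_iff] at h4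
    exact h2 ((Nat.prime_dvd_prime_iff_eq hp.out Nat.prime_two).mp h4)
  obtain ⟨x, y, hxy⟩ := FiniteField.exists_root_sum_quadratic (R := ZMod p)
    (f := Polynomial.X ^ 2 - Polynomial.C (a : ZMod p))
    (g := Polynomial.C 3 * Polynomial.X ^ 2)
    (Polynomial.degree_X_pow_sub_C (by norm_num) _)
    (Polynomial.degree_C_mul_X_pow 2 h3')
    (by rw [ZMod.card]; exact hp.out.eq_two_or_odd.resolve_left h2)
  simp only [Polynomial.eval_sub, Polynomial.eval_pow, Polynomial.eval_X, Polynomial.eval_C,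
    Polynomial.eval_mul] at hxy
  have hd : (!![x + y, -(2 * y); 2 * y, x - y] : Matrix (Fin 2) (Fin 2) (ZMod p)).det = a := by
    rw [Matrix.det_fin_two_of]; linear_combination hxy
  refine ⟨Matrix.GeneralLinearGroup.mkOfDetNeZero _ (hd ▸ a.ne_zero), Units.ext hd,
    Units.ext ?_⟩
  ext i j; fin_cases i <;> fin_cases j <;> simp [Matrix.mul_apply] <;> ring

end P

end Cfsg.Lib.Hls
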