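import Cfsg.Agent.Hls.Wt
import Cfsg.Agent.Solv.Frattini

/-!
# Fixed spaces: lifting elements of `SL₂(p)`
-/

set_option autoImplicit false

namespace Cfsg.Lib.Hls

open Subgroup

variable {X : Type*} [Group X] [Finite X]

omit [Finite X] in
theorem lift_pow {G : Type*} [Group G] (π : X →* G) (x0 : X)
    {m : ℕ} (hg : π x0 ^ m = 1) (hc : (Nat.card π.ker).Coprime m) :
    ∃ e, e ≡ 1 [MOD m] ∧ π (x0 ^ e) = π x0 ∧ (x0 ^ e) ^ m = 1 := by
  obtain ⟨e, he1, he2⟩ := Nat.chineseRemainder hc 0 1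
  obtain ⟨c, rfl⟩ : Nat.card π.ker ∣ e := (Nat.modEq_zero_iff_dvd).mp he1
  refine ⟨Nat.card π.ker * c, he2, ?_, ?_⟩
  · rw [map_pow]
    have := (pow_eq_pow_iff_modEq (x := π x0)).mpr
      (he2.of_dvd (orderOf_dvd_of_pow_eq_one hg))
    rwa [pow_one] at this
  · have h1 : x0 ^ m ∈ π.ker := by rw [MonoidHom.mem_ker, map_pow, hg]
    have h2 := congrArg Subtype.val (pow_card_eq_one' (x := (⟨_, h1⟩ : π.ker)))
    rw [← pow_mul, mul_comm, pow_mul, pow_mul]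
    change (x0 ^ m) ^ Nat.card π.ker = 1 at h2
    rw [h2, one_pow]

omit [Finite X] in
theorem lift_coprime {G : Type*} [Group G] (π : X →* G) (hπ : Function.Surjective π) {g : G}
    {m : ℕ} (hg : g ^ m = 1) (hc : (Nat.card π.ker).Coprime m) : ∃ x, π x = g ∧ x ^ m = 1 := by
  obtain ⟨x0, rfl⟩ := hπ g
  obtain ⟨e, -, h1, h2⟩ := lift_pow π x0 hg hc
  exact ⟨_, h1, h2⟩

variable {p : ℕ} [hp : Fact p.Prime]

/-- the root subgroup -/
def uH : Multiplicative (ZMod p) →* SLp p where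
  toFun a := uu a.toAdd
  map_one' := uu_zero
  map_mul' _ _ := uu_add _ _

theorem tt_conj (a : (ZMod p)ˣ) (b : ZMod p) : tt a * uu b * (tt a)⁻¹ = uu ((a : ZMod p) ^ 2 * b) := by
  rw [tt_uu, mul_inv_cancel_right]

theorem lift_eig (π : X →* SLp p) (hπ : Function.Surjective π) (hker : IsPGroup p π.ker)
    {g0 : (ZMod p)ˣ} {t : X} (ht : π t = tt g0) (htn : t ^ (p - 1) = 1) :
    ∃ (y : X) (μ e : ℕ), π y = uu 1 ∧ t * y * t⁻¹ = y ^ μ ∧ y ^ p ^ e = 1 := by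
  classical
  have hp1 := hp.out.one_lt
  let R := (uH (p := p)).range.comap π
  have hRm : ∀ x, x ∈ R ↔ ∃ a, uu a = π x := fun x =>
    ⟨fun ⟨a, ha⟩ => ⟨a.toAdd, ha⟩, fun ⟨a, ha⟩ => ⟨Multiplicative.ofAdd a, ha⟩⟩
  have hRp : IsPGroup p R := by
    rintro ⟨x, hx⟩
    obtain ⟨a, ha⟩ := (hRm x).mp hx
    have h1 : x ^ p ∈ π.ker := by
      rw [MonoidHom.mem_ker, map_pow, ← ha, uu_pow]; simp [uu_zero]
    obtain ⟨k, hk⟩ := hker ⟨_, h1⟩
    refine ⟨k + 1, Subtype.ext ?_⟩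
    have := congrArg Subtype.val hk
    change (x ^ p) ^ p ^ k = 1 at this
    change x ^ p ^ (k + 1) = 1
    rw [pow_succ', pow_mul, this]
  let 𝒮 : Set (Subgroup X) := {Y | Y ≤ R ∧ (∀ x ∈ Y, t * x * t⁻¹ ∈ Y) ∧ ∃ x ∈ Y, π x ≠ 1}
  have hR : R ∈ 𝒮 := by
    refine ⟨le_rfl, fun x hx => ?_, ?_⟩
    · obtain ⟨a, ha⟩ := (hRm x).mp hx
      exact (hRm _).mpr ⟨_, by rw [map_mul, map_mul, map_inv, ht, ← ha, tt_conj]⟩
    · obtain ⟨x, hx⟩ := hπ (uu 1)
      refine ⟨x, (hRm x).mpr ⟨1, hx.symm⟩, fun h => ?_⟩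
      rw [hx, ← uu_zero] at h
      exact one_ne_zero (uu_inj h)
  obtain ⟨Y, ⟨hYR, hYt, x0, hx0, hx1⟩, hmin⟩ := (Set.toFinite 𝒮).exists_minimal ⟨R, hR⟩
  have hYp : IsPGroup p Y := hRp.to_le hYR
  let c : Y →* Y := ((MulAut.conj t).toMonoidHom.comp Y.subtype).codRestrict Y
    fun x => hYt x x.2
  have hc : ∀ x : Y, (c x : X) = t * x * t⁻¹ := fun _ => rfl
  have hci : ∀ (i : ℕ) (x : Y), (c^[i] x : X) = t ^ i * x * (t ^ i)⁻¹ := by
    intro i x
    induction i with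
    | zero => simp
    | succ i ih => rw [Function.iterate_succ_apply', hc, ih, pow_succ']; group
  have hu : ∀ x : Y, π x = uu (π x 0 1) := by
    intro x
    obtain ⟨a, ha⟩ := (hRm x).mp (hYR x.2)
    rw [← ha]; rfl
  let ψ : Y →* Multiplicative (ZMod p) :=
    { toFun := fun x => Multiplicative.ofAdd (π x 0 1)
      map_one' := by simp
      map_mul' := fun x y => by
        rw [← ofAdd_add]
        congr 1
        apply uu_inj
        rw [uu_add, ← hu, ← hu, ← hu, coe_mul, map_mul] }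
  have hψ : ∀ x : Y, π x = uu (ψ x).toAdd := hu
  have hψc : ∀ x : Y, (ψ (c x)).toAdd = (g0 : ZMod p) ^ 2 * (ψ x).toAdd := by
    intro x
    apply uu_inj
    rw [← hψ, hc, map_mul, map_mul, map_inv, ht, hψ, tt_conj]
  have hψi : ∀ (i : ℕ) (x : Y), (ψ (c^[i] x)).toAdd = ((g0 : ZMod p) ^ 2) ^ i * (ψ x).toAdd := by
    intro i x
    induction i with
    | zero => simp
    | succ i ih => rw [Function.iterate_succ_apply', hψc, ih]; ring
  obtain ⟨N, hN⟩ := IsPGroup.iff_card.mp hYp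
  have hexp : ∀ x : Y, x ^ p ^ N = 1 := fun x => by rw [← hN]; exact pow_card_eq_one'
  obtain ⟨ν, hν1, hν2⟩ : ∃ ν : ℕ, ν ^ (p - 1) ≡ 1 [MOD p ^ (N + 1)] ∧
      (ν : ZMod p) * (g0 : ZMod p) ^ 2 = 1 := by
    have h0 : ((g0⁻¹ ^ 2 : (ZMod p)ˣ) : ZMod p) ≠ 0 := Units.ne_zero _
    refine ⟨((g0⁻¹ ^ 2 : (ZMod p)ˣ) : ZMod p).val ^ p ^ N, ?_, ?_⟩
    · have := Nat.ModEq.pow_totient (x := ((g0⁻¹ ^ 2 : (ZMod p)ˣ) : ZMod p).val) (n := p ^ (N + 1))
        (Nat.Coprime.pow_right _ (ZMod.val_coe_unit_coprime _))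
      rwa [Nat.totient_prime_pow_succ hp.out, pow_mul] at this
    · rw [Nat.cast_pow, ZMod.natCast_zmod_val, ZMod.pow_card_pow, Units.val_pow_eq_pow_val,
        ← mul_pow, Units.inv_mul, one_pow]
  let f : Y →* Abelianization Y := Abelianization.of
  have hf : Function.Surjective f := QuotientGroup.mk_surjective
  have hνf : ∀ x : Y, f x ^ ν ^ (p - 1) = f x := by
    intro x
    have h1 : f x ^ p ^ (N + 1) = 1 := by rw [pow_succ, pow_mul, ← map_pow, hexp, map_one, one_pow]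
    have := (pow_eq_pow_iff_modEq (x := f x)).mpr (hν1.of_dvd (orderOf_dvd_of_pow_eq_one h1))
    rwa [pow_one] at this
  let x1 : Y := ⟨x0, hx0⟩
  obtain ⟨y, hy⟩ := hf (∏ i ∈ Finset.range (p - 1), f (c^[i] x1) ^ ν ^ i)
  have hψy : (ψ y).toAdd = -(ψ x1).toAdd := by
    have h1 : ψ y = Abelianization.lift ψ (f y) := rfl
    rw [h1, hy, map_prod, toAdd_prod]
    rw [Finset.sum_congr rfl (g := fun _ => (ψ x1).toAdd), Finset.sum_const, Finset.card_range,
      nsmul_eq_mul, Nat.cast_sub hp1.le, ZMod.natCast_self]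
    · ring
    · intro i _
      rw [map_pow, toAdd_pow]
      change ν ^ i • (ψ (c^[i] x1)).toAdd = _
      rw [hψi, nsmul_eq_mul, Nat.cast_pow, ← mul_assoc, ← mul_pow, hν2, one_pow, one_mul]
  have hy0 : (ψ y).toAdd ≠ 0 := by
    rw [hψy, neg_ne_zero]
    intro h
    apply hx1
    have := hψ x1
    rwa [h, uu_zero] at this
  have hcy : f (c y) ^ ν = f y := by
    have h1 : f (c y) = Abelianization.map c (f y) := rfl
    have h2 := Finset.prod_range_succ (fun i => f (c^[i] x1) ^ ν ^ i) (p - 1)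
    have h3 : c^[p - 1] x1 = x1 := Subtype.ext (by rw [hci, htn]; simp)
    rw [Finset.prod_range_succ', h3, hνf, pow_zero, pow_one, Function.iterate_zero_apply,
      mul_left_inj] at h2
    rw [h1, hy, map_prod, ← Finset.prod_pow, ← h2]
    refine Finset.prod_congr rfl fun i _ => ?_
    rw [map_pow, ← pow_mul, ← pow_succ, Function.iterate_succ_apply']
    rfl
  have hcy2 : f (c y) = f y ^ ν ^ (p - 2) := by
    rw [← hcy, ← pow_mul, ← pow_succ', show p - 2 + 1 = p - 1 by omega, hνf]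
  let Z : Subgroup Y := (zpowers (f y)).comap f
  have hZ : Z = ⊤ := by
    have h1 : Z.map Y.subtype ∈ 𝒮 := by
      refine ⟨(map_subtype_le _).trans hYR, ?_, y, ⟨y, mem_zpowers _, rfl⟩, fun h => hy0 ?_⟩
      · rintro _ ⟨x, ⟨k, hk⟩, rfl⟩
        refine ⟨c x, ?_, rfl⟩
        change f (c x) ∈ zpowers (f y)
        have h1 : f (c x) = Abelianization.map c (f x) := rfl
        have h2 : f (c y) = Abelianization.map c (f y) := rfl
        rw [h1, ← hk, map_zpow, ← h2, hcy2]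
        exact zpow_mem (pow_mem (mem_zpowers _) _) _
      · apply uu_inj
        rw [← hψ, uu_zero]; exact h
    have h2 := hmin h1 (map_subtype_le _)
    rw [eq_top_iff]
    intro x _
    obtain ⟨z, hz, hz2⟩ := h2 x.2
    rwa [← Subtype.ext hz2]
  have hgen : zpowers y = ⊤ := by
    have := hYp.isNilpotent
    refine frattini_nongenerating ?_
    rw [eq_top_iff]
    intro x _
    obtain ⟨k, hk⟩ : x ∈ Z := hZ ▸ mem_top x
    have h1 : (y ^ k)⁻¹ * x ∈ commutator Y := by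
      rw [← Abelianization.ker_of, MonoidHom.mem_ker, map_mul, map_inv, map_zpow]
      exact inv_mul_eq_one.mpr hk
    rw [← mul_inv_cancel_left (y ^ k) x]
    exact mul_mem_sup (zpow_mem (mem_zpowers _) _)
      (Solv.commutator_le_frattini_of_isNilpotent h1)
  obtain ⟨μ, hμ⟩ : c y ∈ Submonoid.powers y :=
    mem_powers_iff_mem_zpowers.mpr (hgen ▸ mem_top _)
  refine ⟨y ^ ((ψ y).toAdd⁻¹).val, μ, N, ?_, ?_, ?_⟩
  · rw [map_pow, hψ, uu_pow, ZMod.natCast_zmod_val, inv_mul_cancel₀ hy0]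
  · have h1 : (y : X) ^ μ = t * y * t⁻¹ := congrArg Subtype.val hμ
    rw [← conj_pow, ← h1, ← pow_mul, ← pow_mul, mul_comm]
  · have h1 : (y : X) ^ p ^ N = 1 := congrArg Subtype.val (hexp y)
    rw [← pow_mul, mul_comm, pow_mul, h1, one_pow]

end Cfsg.Lib.Hls
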