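import Cfsg.Agent.Hls.Lift
import Cfsg.Agent.Perm.PermModule

/-!
# Fixed spaces: extensions of `SL₂(p)` by a group acting trivially on simple modules
-/

set_option autoImplicit false

namespace Cfsg.Lib.Hls

open Module
open LinearMap hiding smul_apply sub_apply add_apply zero_apply

universe v

variable {K : Type*} [Field K] {X : Type*} [Group X]

/-- the conclusion -/
def Good {V : Type*} [AddCommGroup V] [Module K V] (ρ : Representation K X V) : Prop :=
  ∃ g, g ≠ 1 ∧ finrank K V ≤ 6 * nl (ρ g - 1)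

theorem Good.of_comp {H : Type*} [Group H] {V : Type*} [AddCommGroup V] [Module K V]
    {ρ : Representation K H V} {f : X →* H} (hf : Function.Injective f) (h : Good (ρ.comp f)) :
    Good ρ := by
  obtain ⟨g, h1, h2⟩ := h
  exact ⟨f g, fun h => h1 (hf (h.trans f.map_one.symm)), h2⟩

theorem good_of {V : Type*} [AddCommGroup V] [Module K V] {ρ : Representation K X V} {g h : X}
    (hg : g ≠ 1) (hh : h ≠ 1) {a b : ℕ} (hab : a + b ≤ 6)
    (H : finrank K V ≤ a * nl (ρ g - 1) + b * nl (ρ h - 1)) : Good ρ := by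
  rcases le_total (nl (ρ g - 1)) (nl (ρ h - 1)) with h1 | h1
  · refine ⟨h, hh, H.trans ?_⟩
    calc _ ≤ a * nl (ρ h - 1) + b * nl (ρ h - 1) := by gcongr
      _ = (a + b) * nl (ρ h - 1) := by ring
      _ ≤ _ := by gcongr
  · refine ⟨g, hg, H.trans ?_⟩
    calc _ ≤ a * nl (ρ g - 1) + b * nl (ρ g - 1) := by gcongr
      _ = (a + b) * nl (ρ g - 1) := by ring
      _ ≤ _ := by gcongr

theorem factor {G : Type*} [Group G] (π : X →* G) (hπ : Function.Surjective π)
    {M : Type*} [AddCommGroup M] [Module K M] {σ : Representation K X M} (hσ : Sim σ)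
    (hk : ∀ x ∈ π.ker, σ x = 1) : ∃ σ' : Representation K G M, Sim σ' ∧ ∀ x, σ' (π x) = σ x := by
  have hle : π.ker ≤ σ.asGroupHom.ker := fun x hx => Units.ext (hk x hx)
  let τ := π.liftOfRightInverse (Function.surjInv hπ) (Function.rightInverse_surjInv hπ)
    ⟨σ.asGroupHom, hle⟩
  have hτ : ∀ x, τ (π x) = σ.asGroupHom x := fun x =>
    π.liftOfRightInverse_comp_apply _ _ ⟨σ.asGroupHom, hle⟩ x
  have h1 : ∀ x, ((Units.coeHom _).comp τ) (π x) = σ x := fun x => by
    rw [MonoidHom.comp_apply, hτ]; rfl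
  refine ⟨(Units.coeHom _).comp τ, ⟨hσ.nt, fun U hU => hσ.inv U fun g v hv => ?_⟩, h1⟩
  rw [← h1]; exact hU _ v hv

theorem triv_of_pgroup [Finite X] {l : ℕ} [Fact l.Prime] [CharP K l] (N : Subgroup X) [hN : N.Normal]
    (hl : IsPGroup l N) {M : Type*} [AddCommGroup M] [Module K M] {σ : Representation K X M}
    (hσ : Sim σ) : ∀ x ∈ N, σ x = 1 := by
  have := hσ.nt
  obtain ⟨v, -, h0, hv⟩ := Perm.exists_fixed_vector_of_isPGroup hl (σ.comp N.subtype) ⊤
    (fun _ _ _ => trivial) top_ne_bot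
  let U : Submodule K M := ⨅ x : N, ker (σ x - 1)
  have hU : ∀ z, z ∈ U ↔ ∀ x ∈ N, σ x z = z := fun z => by simp [U, sub_eq_zero]
  have : U = ⊤ := by
    refine hσ.top (fun g z hz => ?_) ((hU v).mpr fun x hx => hv ⟨x, hx⟩) h0
    rw [hU] at hz ⊢
    intro x hx
    have e : x * g = g * (g⁻¹ * x * g) := by group
    rw [← End.mul_apply, ← map_mul, e, map_mul, End.mul_apply, hz _ (hN.conj_mem' x hx g)]
  intro x hx
  ext z
  exact (hU z).mp (this ▸ Submodule.mem_top) x hx

variable {p : ℕ} [hp : Fact p.Prime]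

theorem good_cross [Finite X] [IsAlgClosed K] (π : X →* SLp p) (hπ : Function.Surjective π)
    (h7 : 7 ≤ p) (hpK : (p : K) ≠ 0) (h3K : ((3 : ℕ) : K) ≠ 0)
    (c3 : (Nat.card π.ker).Coprime 3) (cp : (Nat.card π.ker).Coprime p)
    (hk : ∀ (M : Type v) [AddCommGroup M] [Module K M] (σ : Representation K X M), Sim σ →
      ∀ x ∈ π.ker, σ x = 1)
    {V : Type v} [AddCommGroup V] [Module K V] [FiniteDimensional K V]
    (ρ : Representation K X V) : Good ρ := by
  have hp3 : p % 3 ≠ 0 := fun h => by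
    have := (Nat.prime_dvd_prime_iff_eq Nat.prime_three hp.out).mp (Nat.dvd_of_mod_eq_zero h)
    omega
  by_cases h3 : p % 3 = 2
  · have h9 : 9 ≤ p := by
      by_contra h
      have : p = 8 := by omega
      exact absurd (this ▸ hp.out) (by decide)
    obtain ⟨h, hh1, hh2⟩ := lift_coprime π hπ hh_pow c3
    refine ⟨h, fun e => hh_ne (by rw [← hh1, e, map_one]), ?_⟩
    have key := of_simple.{v} (K := K) (ι := Unit) 1 (fun _ => 6)
      (fun _ => gs (1 : K) (MonoidAlgebra.of K _ h) 3) ?_ V ρ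
    · simp only [one_mul, alg_gs, Fintype.sum_unique] at key
      refine key.trans (Nat.mul_le_mul_left _ (rk_gs_le ?_))
      rw [← map_pow, hh2, map_one]
    intro M _ _ _ σ hσ
    simp only [one_mul, alg_gs, Fintype.sum_unique]
    obtain ⟨σ', -, h1⟩ := factor π hπ hσ (hk M σ hσ)
    rw [← h1, hh1]
    exact sl_cross h3 h9 hpK h3K σ'
  obtain ⟨o, ho⟩ := exists_prime_orderOf_dvd_card' (G := (ZMod p)ˣ) 3 (by
    rw [Nat.card_eq_fintype_card, ZMod.card_units]; omega)
  have o3 : o ^ 3 = 1 := ho ▸ pow_orderOf_eq_one o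
  have o1 : o ≠ 1 := by rintro rfl; simp at ho
  have o3' : (o : ZMod p) ^ 3 = 1 := by rw [← Units.val_pow_eq_pow_val, o3, Units.val_one]
  have o2 : (o : ZMod p) ^ 2 + o + 1 = 0 := by
    have h1 : ((o : ZMod p) - 1) * ((o : ZMod p) ^ 2 + o + 1) = 0 := by linear_combination o3'
    exact (mul_eq_zero.mp h1).resolve_left (sub_ne_zero.mpr fun h => o1 (Units.ext h))
  have t3 : tt o ^ 3 = 1 := by rw [tt_pow, o3, tt_one]
  obtain ⟨h, hh1, hh2⟩ := lift_coprime π hπ t3 c3
  obtain ⟨x, hx1, hx2⟩ := lift_coprime π hπ uu_one_pow cp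
  have hne : h ≠ 1 := by
    rintro rfl
    rw [map_one] at hh1
    exact o1 (Units.ext (congrArg (fun x : SLp p => x 0 0) hh1.symm))
  have xne : x ≠ 1 := by
    rintro rfl
    rw [map_one, ← uu_zero] at hx1
    exact zero_ne_one (uu_inj hx1)
  refine good_of xne hne (a := 1) (b := 3) (by norm_num) ?_
  have key := of_simple.{v} (K := K) (ι := Fin 2) 1 ![1, 3]
    ![gs (1 : K) (MonoidAlgebra.of K X x) p, gs (1 : K) (MonoidAlgebra.of K X h) 3] ?_ V ρ
  · simp only [one_mul, Fin.sum_univ_two, Matrix.cons_val_zero, Matrix.cons_val_one, alg_gs] at key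
    have i1 := rk_gs_le (K := K) (T := ρ x) (n := p) (by rw [← map_pow, hx2, map_one])
    have i2 := rk_gs_le (K := K) (T := ρ h) (n := 3) (by rw [← map_pow, hh2, map_one])
    omega
  intro M _ _ _ σ hσ
  simp only [one_mul, Fin.sum_univ_two, Matrix.cons_val_zero, Matrix.cons_val_one, alg_gs]
  obtain ⟨σ', -, h1⟩ := factor π hπ hσ (hk M σ hσ)
  rw [← h1, ← h1, hh1, hx1]
  refine frob_le ((Nat.coprime_primes hp.out Nat.prime_three).mpr (by omega)) hpK uu_one_pow t3
    ?_ ?_ σ'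
  · rw [tt_conj]
    change _ = _
    rw [← uu_add, ← uu_add, add_comm]
  · rw [tt_conj, tt_conj, ← uu_add, ← uu_add, ← uu_zero]
    congr 1
    linear_combination o2 + (o : ZMod p) * o3'

theorem good_def [Finite X] [IsAlgClosed K] [CharP K p] (π : X →* SLp p)
    (hπ : Function.Surjective π) (h7 : 7 ≤ p) (hker : IsPGroup p π.ker)
    {V : Type v} [AddCommGroup V] [Module K V] [FiniteDimensional K V]
    (ρ : Representation K X V) : Good ρ := by
  obtain ⟨n, hn⟩ := IsPGroup.iff_card.mp hker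
  have h3K : ((3 : ℕ) : K) ≠ 0 := by
    rw [Ne, CharP.cast_eq_zero_iff K p]
    intro h
    have := Nat.le_of_dvd (by norm_num) h
    omega
  have nK : ((p - 1 : ℕ) : K) ≠ 0 := by
    rw [Ne, CharP.cast_eq_zero_iff K p]
    intro h
    have := Nat.le_of_dvd (by omega) h
    omega
  obtain ⟨g0, hg0⟩ := IsCyclic.exists_monoid_generator (α := (ZMod p)ˣ)
  have prim := prim_io (K := K) hg0
  set lam := io K p g0 with hlam
  obtain ⟨h, hh1, hh2⟩ := lift_coprime π hπ hh_pow (by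
    rw [hn]
    exact Nat.Coprime.pow_left _ ((Nat.coprime_primes hp.out Nat.prime_three).mpr (by omega)))
  obtain ⟨t, ht1, ht2⟩ := lift_coprime π hπ (g := tt g0) (m := p - 1)
    (by rw [tt_pow, ZMod.units_pow_card_sub_one_eq_one, tt_one]) (by
      rw [hn]
      refine Nat.Coprime.pow_left _ ((Nat.Prime.coprime_iff_not_dvd hp.out).mpr fun h => ?_)
      have := Nat.le_of_dvd (by omega) h
      omega)
  obtain ⟨y, μ, e, hy1, hy2, hy3⟩ := lift_eig π hπ hker ht1 ht2
  have hμ : (μ : K) = lam ^ 2 := by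
    have := congrArg π hy2
    rw [map_mul, map_mul, map_inv, map_pow, ht1, hy1, tt_conj, uu_pow, mul_one, mul_one] at this
    rw [hlam, ← map_pow, uu_inj this, map_natCast]
  have hne : h ≠ 1 := fun e => hh_ne (by rw [← hh1, e, map_one])
  have yne : y ≠ 1 := by
    rintro rfl
    rw [map_one, ← uu_zero] at hy1
    exact zero_ne_one (uu_inj hy1)
  rcases subsingleton_or_nontrivial V with hV | hV
  · exact ⟨h, hne, by rw [finrank_zero_of_subsingleton]; omega⟩
  have wd : ∀ (M : Type v) [AddCommGroup M] [Module K M] [FiniteDimensional K M] [Nontrivial M]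
      (σ : Representation K X M),
      WD lam p (σ t) (σ y) (Eop lam (p - 1) (σ t) (σ t⁻¹) (σ y)) := fun M _ _ _ _ σ =>
    wd_of σ prim hp.out h7 nK ht2 hy2 hμ ⟨_, uni_nil σ hy3⟩
  have sd : ∀ (M : Type v) [AddCommGroup M] [Module K M] [FiniteDimensional K M]
      (σ : Representation K X M), Sim σ → IsNilpotent (Eop lam (p - 1) (σ t) (σ t⁻¹) (σ y)) ∧
      ∃ k, k ≤ p - 1 ∧ finrank K M = k + 1 ∧
      (∃ b0, σ t b0 = (lam⁻¹ ^ k) • b0 ∧ ((σ y - 1) ^ k) b0 ≠ 0) ∧
      k / 3 + (if k % 3 = 1 then 0 else 1) ≤ rk (gs (1 : K) (σ h) 3) := by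
    intro M _ _ _ σ hσ
    have := hσ.nt
    refine ⟨⟨p ^ e, ?_⟩, ?_⟩
    · ext v
      exact ((wd M σ).kerE _ v).mpr (by rw [uni_nil σ hy3]; rfl)
    obtain ⟨σ', hσ', h1⟩ := factor π hπ hσ (triv_of_pgroup π.ker hker hσ)
    obtain ⟨k, k1, k2, k3, k4⟩ := simple_data hσ' (by omega) g0
    rw [← ht1, ← hy1, h1, h1] at k3
    rw [← hh1, h1] at k4
    exact ⟨k, k1, k2, k3, k4.trans (nl_le_rk_gs h3K)⟩
  have i2 := rk_gs_le (K := K) (T := ρ h) (n := 3) (by rw [← map_pow, hh2, map_one])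
  let T := MonoidAlgebra.of K X t
  let E := Eop lam (p - 1) T (MonoidAlgebra.of K X t⁻¹) (MonoidAlgebra.of K X y)
  by_cases hyp : y ^ p = 1
  · refine good_of yne hne (a := 2) (b := 4) (by norm_num) ?_
    have key := of_simple.{v} (K := K) (ι := Fin 7) 4 ![4, 2, 2, 2, 1, 1, 1]
      ![gs (1 : K) (MonoidAlgebra.of K X h) 3, E ^ 1 * gs (lam ^ (-1 : ℤ))⁻¹ T (p - 1),
        E ^ (p - 4) * gs (lam ^ (3 : ℤ))⁻¹ T (p - 1), T - lam ^ (3 : ℤ) • 1,
        E ^ 4 * gs (lam ^ (-4 : ℤ))⁻¹ T (p - 1), E ^ (p - 7) * gs (lam ^ (6 : ℤ))⁻¹ T (p - 1),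
        T - lam ^ (6 : ℤ) • 1] ?_ V ρ
    · simp only [Fin.sum_univ_seven, Matrix.cons_val, E, T, map_mul, map_pow, map_sub, map_smul,
        map_one, map_Eop, map_gs, Representation.asAlgebraHom_of] at key
      have := (wd V ρ).ineq1 (by
        have := uni_nil ρ (y := y) (e := 1) (by rw [pow_one, hyp])
        rwa [pow_one] at this)
      omega
    intro M _ _ _ σ hσ
    have := hσ.nt
    simp only [Fin.sum_univ_seven, Matrix.cons_val, E, T, map_mul, map_pow, map_sub, map_smul,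
      map_one, map_Eop, map_gs, Representation.asAlgebraHom_of]
    obtain ⟨hE, k, k1, k2, ⟨b, k3, k4⟩, k5⟩ := sd M σ hσ
    have := (wd M σ).sim1 hE k1 k3 k4 k5
    omega
  · refine good_of hyp hne (a := 1) (b := 5) (by norm_num) ?_
    have key := of_simple.{v} (K := K) (ι := Fin 4) 3 ![5, 1, 1, 2]
      ![gs (1 : K) (MonoidAlgebra.of K X h) 3, gs (lam ^ (1 : ℤ))⁻¹ T (p - 1),
        gs (lam ^ (-1 : ℤ))⁻¹ T (p - 1), T - lam ^ (3 : ℤ) • 1] ?_ V ρ
    · simp only [Fin.sum_univ_four, Matrix.cons_val, T, map_sub, map_smul,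
        map_one, map_gs, Representation.asAlgebraHom_of] at key
      have i1 := (wd V ρ).ineq2
      have i3 : nl ((ρ y - 1) ^ 2) ≤ nl (ρ (y ^ p) - 1) := by
        have : CharP (End K V) p := charP_of_injective_algebraMap (algebraMap K _).injective p
        have e1 : ρ (y ^ p) - 1 = (ρ y - 1) ^ (p - 2) * (ρ y - 1) ^ 2 := by
          rw [← pow_add, show p - 2 + 2 = p by omega,
            sub_pow_char_of_commute _ (Commute.one_right _), one_pow, map_pow]
        refine Submodule.finrank_mono fun v hv => ?_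
        rw [mem_ker] at hv ⊢
        rw [e1, End.mul_apply, hv, map_zero]
      omega
    intro M _ _ _ σ hσ
    have := hσ.nt
    simp only [Fin.sum_univ_four, Matrix.cons_val, T, map_sub, map_smul,
      map_one, map_gs, Representation.asAlgebraHom_of]
    obtain ⟨hE, k, k1, k2, ⟨b, k3, k4⟩, k5⟩ := sd M σ hσ
    have := (wd M σ).sim2 hE k1 k3 k4 k5
    omega

end Cfsg.Lib.Hls
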