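import Cfsg.Agent.Hls.Cross

/-!
# Fixed spaces: simple modules of `SL₂(p)` in characteristic `p`
-/

set_option autoImplicit false
set_option linter.unusedSectionVars false

namespace Cfsg.Lib.Hls

open Module
open LinearMap hiding smul_apply sub_apply add_apply zero_apply

section Fix

variable {K V : Type*} [Field K] [AddCommGroup V] [Module K V] [FiniteDimensional K V]

theorem fixvec [IsAlgClosed K] [Nontrivial V] (Y T : End K V) (hY : IsNilpotent (Y - 1))
    (hT : ∀ v, Y v = v → Y (T v) = T v) : ∃ v, v ≠ 0 ∧ Y v = v ∧ ∃ ν : K, T v = ν • v := by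
  have h0 : ker (Y - 1) ≠ ⊥ := by
    intro h
    obtain ⟨n, hn⟩ := hY
    have hi : Function.Injective ⇑((Y - 1) ^ n : End K V) := by
      rw [End.coe_pow]; exact (ker_eq_bot.mp h).iterate n
    obtain ⟨x, hx⟩ := exists_ne (0 : V)
    exact hx (hi (by rw [hn]; rfl))
  have mem : ∀ v, v ∈ ker (Y - 1) ↔ Y v = v := fun v => by
    rw [mem_ker, LinearMap.sub_apply, sub_eq_zero, End.one_apply]
  have hW : ∀ x ∈ ker (Y - 1), T x ∈ ker (Y - 1) := fun x hx => (mem _).mpr (hT x ((mem x).mp hx))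
  have : Nontrivial (ker (Y - 1)) := Submodule.nontrivial_iff_ne_bot.mpr h0
  obtain ⟨ν, hν⟩ := End.exists_eigenvalue (T.restrict hW)
  obtain ⟨⟨x, hx⟩, hx1, hx2⟩ := hν.exists_hasEigenvector
  exact ⟨x, fun h => hx2 (Subtype.ext h), (mem x).mp hx, ν,
    congrArg Subtype.val (End.mem_eigenspace_iff.mp hx1)⟩

theorem pow_le_span {A : Type*} [CommRing A] [Algebra K A] (ξ η : A) (k : ℕ) :
    Submodule.span K {ξ, η} ^ k ≤
      Submodule.span K (Set.range fun a : Fin (k + 1) => ξ ^ (a : ℕ) * η ^ (k - a)) := by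
  induction k with
  | zero =>
    rw [pow_zero, Submodule.one_eq_span, Submodule.span_singleton_le_iff_mem]
    exact Submodule.subset_span ⟨0, by simp⟩
  | succ k ih =>
    rw [pow_succ]
    refine (mul_le_mul_left ih _).trans ?_
    rw [Submodule.span_mul_span, Submodule.span_le]
    rintro _ ⟨_, ⟨a, rfl⟩, y, hy, rfl⟩
    rcases hy with rfl | rfl
    · refine Submodule.subset_span ⟨a.succ, ?_⟩
      simp only [Fin.val_succ, Nat.add_sub_add_right]
      ring
    · refine Submodule.subset_span ⟨a.castSucc, ?_⟩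
      have : k + 1 - (a : ℕ) = k - a + 1 := by omega
      simp only [Fin.val_castSucc, this]
      ring

end Fix

section Dec

variable {F : Type*} [Field F]

theorem dec_ne (x : Matrix.SpecialLinearGroup (Fin 2) F) (h : x 1 0 ≠ 0) :
    x = uu (x 0 0 / x 1 0) * tt (Units.mk0 _ h)⁻¹ * ww * uu (x 1 1 / x 1 0) := by
  have hd : x 0 0 * x 1 1 - x 0 1 * x 1 0 = 1 := by
    rw [← Matrix.det_fin_two]; exact x.2
  ext i j; fin_cases i <;> fin_cases j <;> simp [Matrix.mul_apply] <;> field_simp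
  linear_combination -hd

theorem dec_ne' (x : Matrix.SpecialLinearGroup (Fin 2) F) (h : x 1 0 = 0) : x 1 1 ≠ 0 := by
  have hd : x 0 0 * x 1 1 - x 0 1 * x 1 0 = 1 := by
    rw [← Matrix.det_fin_two]; exact x.2
  intro h1
  rw [h, h1] at hd
  simp at hd

theorem dec_eq (x : Matrix.SpecialLinearGroup (Fin 2) F) (h : x 1 0 = 0) :
    x = uu (x 0 1 / x 1 1) * tt (Units.mk0 _ (dec_ne' x h))⁻¹ := by
  have hd : x 0 0 * x 1 1 - x 0 1 * x 1 0 = 1 := by
    rw [← Matrix.det_fin_two]; exact x.2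
  have := dec_ne' x h
  rw [h] at hd
  ext i j; fin_cases i <;> fin_cases j <;> simp [Matrix.mul_apply, h] <;> field_simp
  linear_combination hd

end Dec

variable {K : Type*} [Field K] {p : ℕ} [hp : Fact p.Prime] [CharP K p]

/-- the prime field in `K` -/
abbrev io (K : Type*) [Field K] (p : ℕ) [CharP K p] : ZMod p →+* K := ZMod.castHom (dvd_refl p) K

/-- `SL₂(p)` -/
abbrev SLp (p : ℕ) := Matrix.SpecialLinearGroup (Fin 2) (ZMod p)

/-- right translation of functions -/
def RR (g : SLp p) : (SLp p → K) →ₐ[K] (SLp p → K) where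
  toFun f := fun x => f (x * g)
  map_one' := rfl
  map_mul' _ _ := rfl
  map_zero' := rfl
  map_add' _ _ := rfl
  commutes' _ := rfl

omit [CharP K p] in
theorem RR_apply (g : SLp p) (f : SLp p → K) (x : SLp p) : RR g f x = f (x * g) := rfl

variable (K p) in
/-- lower left entry -/
def cf : SLp p → K := fun x => io K p (x 1 0)

variable (K p) in
/-- lower right entry -/
def df : SLp p → K := fun x => io K p (x 1 1)

theorem RR_cf (g : SLp p) :
    RR g (cf K p) = io K p (g 0 0) • cf K p + io K p (g 1 0) • df K p := by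
  funext x
  simp only [RR_apply, cf, df, Matrix.SpecialLinearGroup.coe_mul, Matrix.mul_apply,
    Fin.sum_univ_two, map_add, map_mul, Pi.add_apply, Pi.smul_apply, smul_eq_mul]
  ring

theorem RR_df (g : SLp p) :
    RR g (df K p) = io K p (g 0 1) • cf K p + io K p (g 1 1) • df K p := by
  funext x
  simp only [RR_apply, cf, df, Matrix.SpecialLinearGroup.coe_mul, Matrix.mul_apply,
    Fin.sum_univ_two, map_add, map_mul, Pi.add_apply, Pi.smul_apply, smul_eq_mul]
  ring

theorem RR_mem (g : SLp p) (k : ℕ) {f : SLp p → K}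
    (hf : f ∈ Submodule.span K {cf K p, df K p} ^ k) :
    RR g f ∈ Submodule.span K {cf K p, df K p} ^ k := by
  have c1 : cf K p ∈ Submodule.span K {cf K p, df K p} := Submodule.subset_span (by simp)
  have d1 : df K p ∈ Submodule.span K {cf K p, df K p} := Submodule.subset_span (by simp)
  have h1 : (Submodule.span K {cf K p, df K p}).map (RR g).toLinearMap ≤
      Submodule.span K {cf K p, df K p} := by
    rw [Submodule.map_span, Submodule.span_le]
    rintro _ ⟨_, rfl | rfl, rfl⟩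
    · change RR g (cf K p) ∈ _
      rw [RR_cf]
      exact Submodule.add_mem _ (Submodule.smul_mem _ _ c1) (Submodule.smul_mem _ _ d1)
    · change RR g (df K p) ∈ _
      rw [RR_df]
      exact Submodule.add_mem _ (Submodule.smul_mem _ _ c1) (Submodule.smul_mem _ _ d1)
  have h2 := Submodule.mem_map_of_mem (f := (RR g).toLinearMap) hf
  rw [Submodule.map_pow] at h2
  exact pow_le_pow_left' h1 k h2

theorem prim_io {g0 : (ZMod p)ˣ} (hg0 : ∀ a, a ∈ Submonoid.powers g0) :
    IsPrimitiveRoot (io K p g0) (p - 1) := by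
  have h1 : orderOf g0 = p - 1 := by
    rw [orderOf_eq_card_of_forall_mem_powers hg0, Nat.card_eq_fintype_card, ZMod.card_units]
  have h2 : IsPrimitiveRoot (g0 : ZMod p) (p - 1) :=
    IsPrimitiveRoot.coe_units_iff.mpr (h1 ▸ IsPrimitiveRoot.orderOf g0)
  exact h2.map_of_injective (f := io K p) (io K p).injective

variable {M : Type*} [AddCommGroup M] [Module K M] [FiniteDimensional K M]

omit [FiniteDimensional K M] in
theorem uni_nil [Nontrivial M] {G : Type*} [Group G] (σ : Representation K G M) {y : G} {e : ℕ}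
    (hy : y ^ p ^ e = 1) : (σ y - 1) ^ p ^ e = 0 := by
  have : CharP (End K M) p := charP_of_injective_algebraMap (algebraMap K _).injective p
  rw [sub_pow_char_pow_of_commute _ _ (Commute.one_right _), ← map_pow, hy, map_one, one_pow,
    sub_self]

theorem exists_emb [IsAlgClosed K] {σ : Representation K (SLp p) M} (hσ : Sim σ) :
    ∃ (Ψ : M →ₗ[K] (SLp p → K)) (k : ℕ) (m : M), Function.Injective Ψ ∧
      (∀ g v, Ψ (σ g v) = RR g (Ψ v)) ∧ k ≤ p - 1 ∧ Ψ m = cf K p ^ k := by
  classical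
  have := hσ.nt
  obtain ⟨g0, hg0⟩ := IsCyclic.exists_monoid_generator (α := (ZMod p)ˣ)
  have hprim := prim_io (K := K) hg0
  have hp2 := hp.out.two_le
  set Y := σ (uu 1) with hY
  have hnil : (Y - 1) ^ p = 0 := by
    have := uni_nil σ (y := uu 1) (e := 1) (by rw [pow_one, uu_one_pow])
    rwa [pow_one] at this
  have hfix : ∀ v, Y v = v → ∀ a, σ (uu a) v = v := by
    intro v hv a
    have := rep_pow_eig σ (ν := (1 : K)) (s := uu 1) (v := v) (by rw [one_smul]; exact hv) a.val
    rwa [one_pow, one_smul, ← uu_val_pow] at this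
  have hfix' : ∀ φ : Dual K M, (∀ x, φ (Y x) = φ x) → ∀ a x, φ (σ (uu a) x) = φ x := by
    intro φ hφ a
    rw [uu_val_pow]
    induction a.val with
    | zero => simp
    | succ n ih => intro x; rw [pow_succ', map_mul, End.mul_apply, hφ, ih]
  obtain ⟨m, hm0, hm, -⟩ := fixvec Y 1 ⟨p, hnil⟩ fun v hv => hv
  obtain ⟨φ, hφ0, hφ1, ν, hφ2⟩ := fixvec (V := Dual K M) Y.dualMap (σ (tt g0)).dualMap
    ⟨p, by
      have : ∀ (n : ℕ) (φ : Dual K M) x, ((Y.dualMap - 1) ^ n) φ x = φ (((Y - 1) ^ n) x) := by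
        intro n
        induction n with
        | zero => simp
        | succ n ih =>
          intro φ x
          rw [pow_succ, End.mul_apply, ih, pow_succ', End.mul_apply]
          simp
      ext φ x
      rw [this, hnil]; simp⟩
    fun φ hφ => by
      ext x
      have h1 : ∀ x, φ (Y x) = φ x := fun x => DFunLike.congr_fun hφ x
      simp only [dualMap_apply]
      rw [hY, ← End.mul_apply, ← map_mul, tt_uu, map_mul, End.mul_apply, hfix' φ h1]
  have hu := hfix' φ fun x => DFunLike.congr_fun hφ1 x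
  have ht0 : ∀ x, φ (σ (tt g0) x) = ν * φ x := fun x => DFunLike.congr_fun hφ2 x
  have ht1 : ∀ (i : ℕ) x, φ (σ (tt (g0 ^ i)) x) = ν ^ i * φ x := by
    intro i
    induction i with
    | zero => simp [tt_one]
    | succ i ih =>
      intro x
      rw [pow_succ', tt_mul, map_mul, End.mul_apply, ht0, ih]; ring
  have hν : ν ^ (p - 1) = 1 := by
    obtain ⟨x, hx⟩ := DFunLike.ne_iff.mp hφ0
    have := ht1 (p - 1) x
    rw [ZMod.units_pow_card_sub_one_eq_one, tt_one, map_one, End.one_apply] at this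
    exact (mul_right_cancel₀ hx (by rw [one_mul]; exact this)).symm
  have : NeZero (p - 1) := ⟨by omega⟩
  obtain ⟨j', hj', hj2⟩ := hprim.eq_pow_of_pow_eq_one hν
  obtain ⟨j, hj1, hjn, hj⟩ : ∃ j, 1 ≤ j ∧ j ≤ p - 1 ∧ ν * io K p g0 ^ j = 1 :=
    ⟨p - 1 - j', by omega, by omega, by
      rw [← hj2, ← pow_add, Nat.add_sub_cancel' hj'.le, hprim.pow_eq_one]⟩
  have ht : ∀ (a : (ZMod p)ˣ) x, φ (σ (tt a⁻¹) x) = io K p a ^ j * φ x := by
    intro a x
    obtain ⟨i, hi⟩ := hg0 a⁻¹
    have hi' : g0 ^ i = a⁻¹ := hi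
    rw [← hi', ht1]
    congr 1
    have h1 : io K p a * io K p g0 ^ i = 1 := by
      rw [← map_pow, ← map_mul, ← Units.val_pow_eq_pow_val, hi', Units.mul_inv, map_one]
    have h3 : (ν * io K p g0 ^ j) ^ i = 1 := by rw [hj, one_pow]
    have h4 : (io K p a * io K p g0 ^ i) ^ j = 1 := by rw [h1, one_pow]
    linear_combination (io K p a ^ j) * h3 - ν ^ i * h4
  let Ψ : M →ₗ[K] (SLp p → K) := LinearMap.pi fun x => φ ∘ₗ σ x
  have hΨ : ∀ v x, Ψ v x = φ (σ x v) := fun _ _ => rfl
  have heq : ∀ g v, Ψ (σ g v) = RR g (Ψ v) := fun g v => funext fun x => by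
    rw [RR_apply, hΨ, hΨ, map_mul, End.mul_apply]
  have hinj : Function.Injective Ψ := by
    rw [← ker_eq_bot]
    refine (hσ.inv _ fun g v hv => ?_).resolve_right fun h => hφ0 ?_
    · rw [mem_ker] at hv ⊢
      rw [heq, hv, map_zero]
    · ext x
      have : Ψ x = 0 := mem_ker.mp (h ▸ Submodule.mem_top)
      simpa [hΨ] using congrFun this 1
  have ev0 : ∀ v, (∀ a, σ (uu a) v = v) → ∀ x : SLp p, x 1 0 = 0 →
      Ψ v x = io K p (x 1 1) ^ j * φ v := by
    intro v hv x hx
    rw [hΨ]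
    conv_lhs => rw [dec_eq x hx]
    rw [map_mul, End.mul_apply, hu, ht]; rfl
  have ev1 : ∀ v, (∀ a, σ (uu a) v = v) → ∀ x : SLp p, x 1 0 ≠ 0 →
      Ψ v x = io K p (x 1 0) ^ j * φ (σ ww v) := by
    intro v hv x hx
    rw [hΨ]
    conv_lhs => rw [dec_ne x hx]
    rw [map_mul, map_mul, map_mul, End.mul_apply, End.mul_apply, End.mul_apply, hu, ht, hv]; rfl
  have caseA : ∀ v, (∀ a, σ (uu a) v = v) → φ v = 0 → φ (σ ww v) ≠ 0 →
      ∃ m, Ψ m = cf K p ^ j := by
    intro v hv h0 h1
    refine ⟨(φ (σ ww v))⁻¹ • v, funext fun x => ?_⟩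
    rw [map_smul, Pi.smul_apply, Pi.pow_apply, cf, smul_eq_mul]
    by_cases hx : x 1 0 = 0
    · rw [ev0 v hv x hx, h0, hx, map_zero, zero_pow (by omega : j ≠ 0)]; simp
    · rw [ev1 v hv x hx]; field_simp
  have hmP := hfix m hm
  by_cases h0 : φ m = 0
  · have h1 : φ (σ ww m) ≠ 0 := by
      intro h1
      apply hm0
      apply hinj
      funext x
      rw [map_zero, Pi.zero_apply]
      by_cases hx : x 1 0 = 0
      · rw [ev0 m hmP x hx, h0, mul_zero]
      · rw [ev1 m hmP x hx, h1, mul_zero]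
    obtain ⟨m', hm'⟩ := caseA m hmP h0 h1
    exact ⟨Ψ, j, m', hinj, heq, hjn, hm'⟩
  by_cases hc : j = p - 1 ∧ φ (σ ww m) = φ m
  · refine ⟨Ψ, 0, (φ m)⁻¹ • m, hinj, heq, Nat.zero_le _, funext fun x => ?_⟩
    rw [map_smul, Pi.smul_apply, pow_zero, Pi.one_apply, smul_eq_mul]
    by_cases hx : x 1 0 = 0
    · rw [ev0 m hmP x hx, hc.1, ← map_pow, ZMod.pow_card_sub_one_eq_one (dec_ne' x hx), map_one]
      field_simp
    · rw [ev1 m hmP x hx, hc.1, hc.2, ← map_pow, ZMod.pow_card_sub_one_eq_one hx, map_one]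
      field_simp
  let m' : M := ∑ a : ZMod p, σ (uu a) (σ ww m)
  have hm'P : ∀ b, σ (uu b) m' = m' := by
    intro b
    rw [map_sum]
    refine Fintype.sum_equiv (Equiv.addLeft b) _ _ fun a => ?_
    rw [← End.mul_apply, ← map_mul, ← uu_add]; rfl
  have h1 : φ m' = 0 := by
    rw [map_sum]
    simp only [hu]
    rw [Finset.sum_const, Finset.card_univ, ZMod.card, nsmul_eq_mul, CharP.cast_eq_zero, zero_mul]
  have h3 : φ (σ ww m') = io K p (-1) ^ j * φ m + io K p (∑ a : ZMod p, a ^ j) * φ (σ ww m) := by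
    have e : ∀ a : ZMod p, φ (σ ww (σ (uu a) (σ ww m))) =
        (if a = 0 then io K p (-1) ^ j * φ m else 0) + io K p a ^ j * φ (σ ww m) := by
      intro a
      have e1 : φ (σ ww (σ (uu a) (σ ww m))) = Ψ m (ww * uu a * ww) := by
        rw [hΨ, map_mul, map_mul]; rfl
      have e2 : (ww * uu a * ww : SLp p) 1 0 = a := by simp [Matrix.mul_apply]
      have e3 : (ww * uu a * ww : SLp p) 1 1 = -1 := by simp [Matrix.mul_apply]
      rw [e1]
      split_ifs with ha
      · rw [ev0 m hmP _ (e2.trans ha), e3, ha, map_zero, zero_pow (by omega : j ≠ 0)]; simp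
      · rw [ev1 m hmP _ (e2.symm ▸ ha), e2, zero_add]
    rw [map_sum, map_sum, Finset.sum_congr rfl fun a _ => e a, Finset.sum_add_distrib,
      Finset.sum_ite_eq', if_pos (Finset.mem_univ _), ← Finset.sum_mul, map_sum]
    simp only [map_pow]
  have h4 : φ (σ ww m') ≠ 0 := by
    rw [h3]
    by_cases hj : j = p - 1
    · have e1 : (∑ a : ZMod p, a ^ j) = -1 := by
        have : ∀ a : ZMod p, a ^ j = 1 - if a = 0 then 1 else 0 := by
          intro a
          split_ifs with ha
          · rw [ha, zero_pow (by omega : j ≠ 0), sub_self]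
          · rw [hj, ZMod.pow_card_sub_one_eq_one ha, sub_zero]
        rw [Finset.sum_congr rfl fun a _ => this a, Finset.sum_sub_distrib]
        simp
      have e2 : io K p (-1) ^ j = 1 := by
        rw [← map_pow, hj, ZMod.pow_card_sub_one_eq_one (neg_ne_zero.mpr one_ne_zero), map_one]
      rw [e1, e2, map_neg, map_one]
      intro h
      exact hc ⟨hj, by linear_combination -h⟩
    · rw [FiniteField.sum_pow_lt_card_sub_one (ZMod p) j (by rw [ZMod.card]; omega), map_zero,
        zero_mul, add_zero]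
      refine mul_ne_zero (pow_ne_zero _ ?_) h0
      rw [map_neg, map_one]; exact neg_ne_zero.mpr one_ne_zero
  obtain ⟨m'', hm''⟩ := caseA m' hm'P h1 h4
  exact ⟨Ψ, j, m'', hinj, heq, hjn, hm''⟩

omit [FiniteDimensional K M] in
theorem uni_ne {σ : Representation K (SLp p) M} {Ψ : M →ₗ[K] (SLp p → K)}
    (heq : ∀ g v, Ψ (σ g v) = RR g (Ψ v)) {k : ℕ} (hk : k < p) {b : M} (hb0 : Ψ b = df K p ^ k) :
    ((σ (uu 1) - 1) ^ k) b ≠ 0 := by
  have key : ∀ (n : ℕ) (v : M) (a : ZMod p), Ψ (((σ (uu 1) - 1) ^ n) v) (ww * uu a) =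
      (fwdDiff 1)^[n] (fun s : ZMod p => Ψ v (ww * uu s)) a := by
    intro n
    induction n with
    | zero => intro v a; rfl
    | succ n ih =>
      intro v a
      rw [pow_succ, End.mul_apply, ih, Function.iterate_succ_apply]
      refine congrArg (fun f => (fwdDiff 1)^[n] f a) (funext fun s => ?_)
      rw [LinearMap.sub_apply, map_sub, heq, Pi.sub_apply, RR_apply, mul_assoc, ← uu_add]
      rfl
  intro h0
  have h1 := key k b 0
  rw [h0, map_zero, hb0] at h1
  have h2 : (fun s : ZMod p => (df K p ^ k) (ww * uu s)) = io K p ∘ fun s : ZMod p => s ^ k := by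
    funext s
    simp [df, Matrix.mul_apply, -ZMod.castHom_apply]
  have h4 : ∀ (n : ℕ) (f : ZMod p → ZMod p),
      (fwdDiff 1)^[n] (io K p ∘ f) = io K p ∘ (fwdDiff 1)^[n] f := by
    intro n
    induction n with
    | zero => intro f; rfl
    | succ n ih =>
      intro f
      rw [Function.iterate_succ_apply, Function.iterate_succ_apply, ← ih]
      congr 1
      funext s
      simp [fwdDiff, -ZMod.castHom_apply]
  rw [h2, h4, fwdDiff_iter_eq_factorial] at h1
  have h5 : ((k.factorial : ℕ) : ZMod p) = 0 := by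
    apply (io K p).injective
    rw [map_zero]
    exact h1.symm
  rw [ZMod.natCast_eq_zero_iff, hp.out.dvd_factorial] at h5
  omega

theorem RR_xi {ω : K} (hω : ω ^ 2 + ω + 1 = 0) :
    RR (p := p) hh (cf K p - ω • df K p) = ω • (cf K p - ω • df K p) := by
  have e1 : (hh : SLp p) 0 0 = 0 := rfl
  have e2 : (hh : SLp p) 0 1 = -1 := rfl
  have e3 : (hh : SLp p) 1 0 = 1 := rfl
  have e4 : (hh : SLp p) 1 1 = -1 := rfl
  rw [map_sub, map_smul, RR_cf, RR_df, e1, e2, e3, e4, map_zero, map_neg, map_one]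
  have : ω * ω = -1 - ω := by linear_combination hω
  rw [smul_sub ω, smul_smul, this]
  generalize cf K p = c
  generalize df K p = d
  module

theorem count_aux {V : Type*} [AddCommGroup V] [Module K V] [FiniteDimensional K V] {k : ℕ}
    {B : Fin (k + 1) → V} (hli : LinearIndependent K B) (W : Submodule K V)
    (hfix : ∀ a : Fin (k + 1), (a : ℕ) % 3 = (2 * k) % 3 → B a ∈ W) :
    k / 3 + (if k % 3 = 1 then 0 else 1) ≤ finrank K W := by
  set A := k / 3 + (if k % 3 = 1 then 0 else 1) with hA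
  have hlt : ∀ i : Fin A, (2 * k) % 3 + 3 * (i : ℕ) < k + 1 := by
    intro i
    have := i.2
    split_ifs at hA <;> omega
  let f : Fin A → Fin (k + 1) := fun i => ⟨_, hlt i⟩
  have hf : Function.Injective f := fun i j h => Fin.ext (by
    have := congrArg Fin.val h
    simp only [f] at this
    omega)
  have h6 := card_le_of_li (hli.comp f hf) Finset.univ W fun i _ =>
    hfix (f i) (by simp only [f]; omega)
  rwa [Finset.card_univ, Fintype.card_fin] at h6

theorem fix_count [IsAlgClosed K] {σ : Representation K (SLp p) M} {Ψ : M →ₗ[K] (SLp p → K)}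
    (h3 : 3 < p) (hinj : Function.Injective Ψ) (heq : ∀ g v, Ψ (σ g v) = RR g (Ψ v)) {k : ℕ}
    (hle : range Ψ ≤ Submodule.span K {cf K p, df K p} ^ k) (d2 : k + 1 ≤ finrank K M) :
    finrank K M = k + 1 ∧ k / 3 + (if k % 3 = 1 then 0 else 1) ≤ nl (σ hh - 1) := by
  have d3 : finrank K (range Ψ) = finrank K M := finrank_range_of_inj hinj
  obtain ⟨ω, hω⟩ : ∃ ω : K, ω ^ 2 + ω + 1 = 0 := by
    obtain ⟨ω, hω⟩ := IsAlgClosed.exists_root
      (Polynomial.X ^ 2 + Polynomial.X + 1 : Polynomial K) (by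
        have : (Polynomial.X ^ 2 + Polynomial.X + 1 : Polynomial K).degree = 2 := by compute_degree!
        rw [this]; decide)
    exact ⟨ω, by simpa using hω⟩
  have ω3 : ω ^ 3 = 1 := by linear_combination (ω - 1) * hω
  have hω2 : ω ^ 2 - ω ≠ 0 := by
    intro h
    have h4 : ((3 : ℕ) : K) = 0 := by
      push_cast
      linear_combination 4 * hω - (2 * ω + 1) * (hω - h)
    rw [CharP.cast_eq_zero_iff K p] at h4
    have := Nat.le_of_dvd (by norm_num) h4
    omega
  have r1 := RR_xi (p := p) hω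
  have r2 := RR_xi (p := p) (ω := ω ^ 2) (by linear_combination (ω ^ 2 - ω + 1) * hω)
  have hS2 : Submodule.span K {cf K p, df K p} ≤
      Submodule.span K {cf K p - ω • df K p, cf K p - ω ^ 2 • df K p} := by
    generalize cf K p = c
    generalize df K p = d
    have x1 : c - ω • d ∈ Submodule.span K {c - ω • d, c - ω ^ 2 • d} :=
      Submodule.subset_span (by simp)
    have x2 : c - ω ^ 2 • d ∈ Submodule.span K {c - ω • d, c - ω ^ 2 • d} :=
      Submodule.subset_span (by simp)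
    have e1 : (ω ^ 2 - ω)⁻¹ • ((c - ω • d) - (c - ω ^ 2 • d)) = d := by
      have : (c - ω • d) - (c - ω ^ 2 • d) = (ω ^ 2 - ω) • d := by module
      rw [this, smul_smul, inv_mul_cancel₀ hω2, one_smul]
    have y1 := Submodule.smul_mem _ (ω ^ 2 - ω)⁻¹ (Submodule.sub_mem _ x1 x2)
    rw [e1] at y1
    have y2 := Submodule.add_mem _ x1 (Submodule.smul_mem _ ω y1)
    rw [sub_add_cancel] at y2
    rw [Submodule.span_le]
    rintro _ (rfl | rfl)
    · exact y2
    · exact y1
  generalize cf K p - ω • df K p = ξ at r1 hS2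
  generalize cf K p - ω ^ 2 • df K p = η at r2 hS2
  let B : Fin (k + 1) → SLp p → K := fun a => ξ ^ (a : ℕ) * η ^ (k - a)
  have hle2 : range Ψ ≤ Submodule.span K (Set.range B) :=
    hle.trans ((pow_le_pow_left' hS2 k).trans (pow_le_span ξ η k))
  have d4 : finrank K (Submodule.span K (Set.range B)) ≤ k + 1 :=
    (finrank_range_le_card (R := K) B).trans (by simp)
  have d5 := Submodule.finrank_mono hle2
  have hli : LinearIndependent K B := by
    rw [linearIndependent_iff_card_le_finrank_span, Fintype.card_fin]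
    exact le_trans (by omega) d5
  have heq2 : range Ψ = Submodule.span K (Set.range B) :=
    Submodule.eq_of_le_of_finrank_le hle2 (by omega)
  refine ⟨by omega, (count_aux hli ((ker (σ hh - 1)).map Ψ) fun a ha => ?_).trans
    (Submodule.finrank_map_le _ _)⟩
  have hB : B a ∈ range Ψ := by rw [heq2]; exact Submodule.subset_span ⟨a, rfl⟩
  obtain ⟨v, hv⟩ := hB
  refine ⟨v, ?_, hv⟩
  change σ hh v - v = 0
  rw [sub_eq_zero]
  apply hinj
  rw [heq, hv]
  obtain ⟨j, hj⟩ : ∃ j, (a : ℕ) + 2 * (k - a) = 3 * j := ⟨(a + 2 * (k - a)) / 3, by omega⟩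
  simp only [B]
  rw [map_mul, map_pow, map_pow, r1, r2, _root_.smul_pow, _root_.smul_pow, smul_mul_smul_comm,
    ← pow_mul, ← pow_add, hj, pow_mul, ω3, one_pow, one_smul]

theorem simple_data [IsAlgClosed K] {σ : Representation K (SLp p) M} (hσ : Sim σ) (h3 : 3 < p)
    (g0 : (ZMod p)ˣ) : ∃ k, k ≤ p - 1 ∧ finrank K M = k + 1 ∧
      (∃ b0, σ (tt g0) b0 = ((io K p g0)⁻¹ ^ k) • b0 ∧ ((σ (uu 1) - 1) ^ k) b0 ≠ 0) ∧
      k / 3 + (if k % 3 = 1 then 0 else 1) ≤ nl (σ hh - 1) := by
  have := hσ.nt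
  obtain ⟨Ψ, k, m, hinj, heq, hk, hm⟩ := exists_emb hσ
  have c1 : cf K p ∈ Submodule.span K {cf K p, df K p} := Submodule.subset_span (by simp)
  have hb0 : Ψ (σ ww m) = df K p ^ k := by
    have e1 : (ww : SLp p) 0 0 = 0 := rfl
    have e2 : (ww : SLp p) 1 0 = 1 := rfl
    rw [heq, hm, map_pow, RR_cf, e1, e2, map_zero, map_one, zero_smul, zero_add, one_smul]
  have hnil : IsNilpotent (σ (uu 1) - 1) :=
    ⟨p ^ 1, uni_nil σ (by rw [pow_one, uu_one_pow])⟩
  have hne := uni_ne heq (by omega) hb0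
  have hm0 : m ≠ 0 := by
    rintro rfl
    exact hne (by simp)
  have hrange : (Submodule.span K {cf K p, df K p} ^ k).comap Ψ = ⊤ := by
    refine hσ.top (x := m) (fun g v hv => ?_) ?_ hm0
    · rw [Submodule.mem_comap, heq]; exact RR_mem g k hv
    · rw [Submodule.mem_comap, hm]; exact Submodule.pow_mem_pow _ c1 k
  have hle : range Ψ ≤ Submodule.span K {cf K p, df K p} ^ k := by
    rintro _ ⟨v, rfl⟩
    rw [← Submodule.mem_comap, hrange]; trivial
  have d2 : k + 1 ≤ finrank K M := by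
    simpa using (li_pow _ hnil _ k hne).fintype_card_le_finrank
  obtain ⟨h1, h2⟩ := fix_count h3 hinj heq hle d2
  refine ⟨k, hk, h1, ⟨σ ww m, hinj ?_, hne⟩, h2⟩
  have e1 : (tt g0 : SLp p) 0 1 = 0 := rfl
  have e2 : (tt g0 : SLp p) 1 1 = (g0 : ZMod p)⁻¹ := Units.val_inv_eq_inv_val g0
  rw [heq, map_smul, hb0, map_pow, RR_df, e1, e2, map_zero, zero_smul, zero_add, map_inv₀,
    _root_.smul_pow]

end Cfsg.Lib.Hls
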