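import Cfsg.Agent.Hls.Sym

/-!
# Fixed spaces: weight counting in the defining characteristic
-/

set_option autoImplicit false
set_option linter.unusedSectionVars false

namespace Cfsg.Lib.Hls

open Module
open LinearMap hiding smul_apply sub_apply add_apply zero_apply

variable {K : Type*} [Field K]

/-- the raising operator -/
noncomputable def Eop {A : Type*} [Ring A] [Algebra K A] (lam : K) (n : ℕ) (T T' Y : A) : A :=
  ∑ i ∈ Finset.range n, ((lam ^ 2)⁻¹) ^ i • (T ^ i * Y * T' ^ i)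

theorem map_Eop {A B : Type*} [Ring A] [Algebra K A] [Ring B] [Algebra K B] (f : A →ₐ[K] B)
    (lam : K) (n : ℕ) (T T' Y : A) : f (Eop lam n T T' Y) = Eop lam n (f T) (f T') (f Y) := by
  simp [Eop, map_sum]

variable {V : Type*} [AddCommGroup V] [Module K V] [FiniteDimensional K V]

/-- weight data -/
structure WD (lam : K) (p : ℕ) (T Y E : End K V) : Prop where
  prim : IsPrimitiveRoot lam (p - 1)
  pr : p.Prime
  p7 : 7 ≤ p
  nK : ((p - 1 : ℕ) : K) ≠ 0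
  Tn : T ^ (p - 1) = 1
  TE : T * E = lam ^ 2 • (E * T)
  kerE : ∀ (a : ℕ) v, (E ^ a) v = 0 ↔ ((Y - 1) ^ a) v = 0

theorem wd_of {X : Type*} [Group X] (ρ : Representation K X V) {lam : K} {p : ℕ}
    (prim : IsPrimitiveRoot lam (p - 1)) (pr : p.Prime) (p7 : 7 ≤ p)
    (nK : ((p - 1 : ℕ) : K) ≠ 0) {t y : X} {μ : ℕ} (ht : t ^ (p - 1) = 1)
    (hty : t * y * t⁻¹ = y ^ μ) (hμ : (μ : K) = lam ^ 2) (hy : IsNilpotent (ρ y - 1)) :
    WD lam p (ρ t) (ρ y) (Eop lam (p - 1) (ρ t) (ρ t⁻¹) (ρ y)) := by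
  have hl0 : lam ≠ 0 := prim.ne_zero (by omega)
  set c := (lam ^ 2)⁻¹ with hc
  have hc1 : c * lam ^ 2 = 1 := inv_mul_cancel₀ (pow_ne_zero 2 hl0)
  have hcn : c ^ (p - 1) = 1 := by
    rw [hc, inv_pow, ← pow_mul, mul_comm, pow_mul, prim.pow_eq_one, one_pow, inv_one]
  have hcne : c ≠ 1 := by
    intro h
    rw [h, one_mul] at hc1
    have := Nat.le_of_dvd (by norm_num) (prim.dvd_of_pow_eq_one 2 hc1)
    omega
  have hE : Eop lam (p - 1) (ρ t) (ρ t⁻¹) (ρ y) =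
      ∑ i ∈ Finset.range (p - 1), c ^ i • ρ (t ^ i * y * t⁻¹ ^ i) := by
    simp only [Eop, hc, map_mul, map_pow]
  refine ⟨prim, pr, p7, nK, by rw [← map_pow, ht, map_one], ?_, ?_⟩
  · have h1 := Finset.sum_range_succ (fun i => c ^ i • ρ (t ^ i * y * t⁻¹ ^ i)) (p - 1)
    rw [Finset.sum_range_succ', hcn, inv_pow t (p - 1), ht, inv_one, pow_zero, pow_zero, pow_zero,
      add_left_inj, ← hE] at h1
    conv_rhs => rw [← h1]
    rw [hE, Finset.mul_sum, Finset.sum_mul, Finset.smul_sum]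
    refine Finset.sum_congr rfl fun i _ => ?_
    rw [mul_smul_comm, smul_mul_assoc, smul_smul, ← map_mul, ← map_mul]
    congr 1
    · rw [pow_succ]; linear_combination (-c ^ i) * hc1
    · congr 1
      rw [pow_succ' t, pow_succ t⁻¹]; group
  have hconj : ∀ i : ℕ, t ^ i * y * t⁻¹ ^ i = y ^ μ ^ i := by
    intro i
    induction i with
    | zero => simp
    | succ i ih =>
      have : t ^ (i + 1) * y * t⁻¹ ^ (i + 1) = t * (t ^ i * y * t⁻¹ ^ i) * t⁻¹ := by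
        rw [pow_succ' t, pow_succ t⁻¹]; group
      rw [this, ih, ← conj_pow, hty, ← pow_mul, pow_succ']
  let q : Polynomial K := ∑ i ∈ Finset.range (p - 1),
    Polynomial.C (c ^ i) * ∑ j ∈ Finset.range (μ ^ i), Polynomial.X ^ j
  have hq : q.eval 1 = ((p - 1 : ℕ) : K) := by
    simp only [q, Polynomial.eval_finsetSum, Polynomial.eval_mul, Polynomial.eval_C,
      Polynomial.eval_pow, Polynomial.eval_X, one_pow, Finset.sum_const, Finset.card_range,
      nsmul_eq_mul, mul_one, Nat.cast_pow, hμ, ← mul_pow, hc1]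
  have hg : Polynomial.aeval (ρ y) q * (ρ y - 1) = Eop lam (p - 1) (ρ t) (ρ t⁻¹) (ρ y) := by
    have h0 : ∑ i ∈ Finset.range (p - 1), c ^ i = 0 := by
      have := mul_geom_sum c (p - 1)
      rw [hcn, sub_self] at this
      exact (mul_eq_zero.mp this).resolve_left (sub_ne_zero.mpr hcne)
    have h1 : ∑ i ∈ Finset.range (p - 1), c ^ i • (1 : End K V) = 0 := by
      rw [← Finset.sum_smul, h0, zero_smul]
    rw [hE, ← sub_zero (∑ i ∈ Finset.range (p - 1), c ^ i • ρ (t ^ i * y * t⁻¹ ^ i)), ← h1,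
      ← Finset.sum_sub_distrib]
    simp only [q, map_sum, map_mul, Polynomial.aeval_C, map_pow, Polynomial.aeval_X,
      Finset.sum_mul]
    refine Finset.sum_congr rfl fun i _ => ?_
    rw [← map_pow, ← Algebra.smul_def, smul_mul_assoc, geom_sum_mul, smul_sub, ← map_pow,
      ← map_pow, ← map_pow, ← map_mul, ← map_mul, hconj]
  have hcomm : ∀ r : Polynomial K, Commute (ρ y - 1) (Polynomial.aeval (ρ y) r) := by
    intro r
    have : ρ y - 1 = Polynomial.aeval (ρ y) (Polynomial.X - 1 : Polynomial K) := by simp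
    rw [this]
    exact (Commute.all _ r).map _
  have hunit : IsUnit (Polynomial.aeval (ρ y) q) := by
    obtain ⟨r, hr⟩ := Polynomial.X_sub_C_dvd_sub_C_eval (a := (1 : K)) (p := q)
    have h1 : Polynomial.aeval (ρ y) q =
        (ρ y - 1) * Polynomial.aeval (ρ y) r + algebraMap K _ ((p - 1 : ℕ) : K) := by
      have := congrArg (Polynomial.aeval (ρ y)) hr
      rw [hq] at this
      simp only [map_sub, map_mul, Polynomial.aeval_C, Polynomial.aeval_X, map_one] at this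
      rw [← this, sub_add_cancel]
    rw [h1]
    exact IsNilpotent.isUnit_add_right_of_commute ((hcomm r).isNilpotent_mul_right hy)
      ((IsUnit.mk0 _ nK).map _) (Algebra.commutes _ _).symm
  intro a v
  rw [← hg, (hcomm q).symm.mul_pow, End.mul_apply]
  refine ⟨fun h => ?_, fun h => by rw [h, map_zero]⟩
  have := (End.isUnit_iff _).mp (hunit.pow a)
  exact this.1 (h.trans (map_zero _).symm)

namespace WD

variable {lam : K} {p : ℕ} {T Y E : End K V}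

theorem ne (D : WD lam p T Y E) : lam ≠ 0 := D.prim.ne_zero (by have := D.p7; omega)

theorem mapE (D : WD lam p T Y E) (a : ℕ) {j : ℤ} {v : V} (hv : v ∈ T.eigenspace (lam ^ j)) :
    (E ^ a) v ∈ T.eigenspace (lam ^ (j + 2 * a)) := by
  induction a with
  | zero => simpa using hv
  | succ a ih =>
    rw [End.mem_eigenspace_iff] at ih ⊢
    rw [pow_succ', End.mul_apply, ← End.mul_apply T, D.TE, LinearMap.smul_apply, End.mul_apply, ih,
      map_smul, smul_smul]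
    congr 1
    rw [← zpow_natCast, ← zpow_add₀ D.ne]
    congr 1
    push_cast; ring

theorem per (D : WD lam p T Y E) {i j : ℤ} : lam ^ i = lam ^ j ↔ ((p - 1 : ℕ) : ℤ) ∣ i - j := by
  rw [← D.prim.zpow_eq_one_iff_dvd, zpow_sub₀ D.ne, div_eq_one_iff_eq (zpow_ne_zero _ D.ne)]

theorem map_le (D : WD lam p T Y E) (a : ℕ) {i j : ℤ} (h : ((p - 1 : ℕ) : ℤ) ∣ i + 2 * a - j)
    {U : Submodule K V} (hU : U ≤ T.eigenspace (lam ^ i)) :
    U.map (E ^ a) ≤ T.eigenspace (lam ^ j) := by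
  rintro _ ⟨v, hv, rfl⟩
  rw [← D.per.mpr h]
  exact D.mapE a (hU hv)

theorem dist (D : WD lam p T Y E) {i j : ℤ} (h0 : i ≠ j) (h1 : i - j ≤ 8) (h2 : -8 ≤ i - j)
    (h6 : i - j ≠ 6) (h7 : i - j ≠ -6) : lam ^ i ≠ lam ^ j := by
  rw [Ne, D.per]
  intro h
  have h3 := Int.natCast_dvd.mp h
  have h4 := Nat.le_of_dvd (by omega) h3
  have h5 := D.p7
  have h8 := D.pr
  have h9 : p ≠ 8 := by rintro rfl; exact absurd h8 (by decide)
  have h10 : p ≠ 9 := by rintro rfl; exact absurd h8 (by decide)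
  have : p = 7 := by omega
  subst this
  omega

theorem range_eps (D : WD lam p T Y E) (j : ℤ) :
    range (gs (lam ^ j)⁻¹ T (p - 1)) = T.eigenspace (lam ^ j) := by
  refine range_gs (zpow_ne_zero _ D.ne) D.Tn ?_ D.nK
  rw [← zpow_natCast, ← zpow_mul, mul_comm, zpow_mul, zpow_natCast, D.prim.pow_eq_one, one_zpow]

theorem rk_eps (D : WD lam p T Y E) (f : End K V) (j : ℤ) :
    rk (f * gs (lam ^ j)⁻¹ T (p - 1)) = finrank K ((T.eigenspace (lam ^ j)).map f) := by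
  rw [← D.range_eps, ← range_comp]; rfl

theorem rk_sub (T : End K V) (c : K) :
    rk (T - c • 1) + finrank K (T.eigenspace c) = finrank K V := by
  rw [End.eigenspace_def]; exact rk_add_nl _

theorem kerE1 (D : WD lam p T Y E) (a : ℕ) : ker (E ^ a) = ker ((Y - 1) ^ a) :=
  Submodule.ext fun v => D.kerE a v

theorem chain (D : WD lam p T Y E) (hE : E ^ p = 0) (a b : ℕ) (hab : a + 1 + b + 1 + 1 = p)
    (i i1 i2 i3 : ℤ) (hi : 2 * i + 2 * a = 0) (h1 : i1 = -i) (h2 : i2 = 2 - i) (h3 : i3 = i - 2) :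
    finrank K ((T.eigenspace (lam ^ i)).map (E ^ a)) +
      finrank K ((T.eigenspace (lam ^ i2)).map (E ^ b)) ≤
      finrank K (T.eigenspace (lam ^ i2)) +
      finrank K ↥(T.eigenspace (lam ^ i1) ⊓ ker (Y - 1)) +
      finrank K ↥(T.eigenspace (lam ^ i3) ⊓ ker (Y - 1)) +
      finrank K ↥(T.eigenspace (lam ^ i) ⊓ ker (Y - 1)) := by
  subst h1 h2 h3
  have h7 := D.p7
  have hk : ker (Y - 1) = ker (E ^ 1) := by rw [D.kerE1, pow_one]
  have l0 := D.map_le a (i := i) (j := -i) ⟨0, by omega⟩ le_rfl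
  have l1 := D.map_le 1 (i := -i) (j := 2 - i) ⟨0, by omega⟩ l0
  have l2 := D.map_le b (i := 2 - i) (j := i - 2) ⟨2, by omega⟩ l1
  have l3 := D.map_le 1 (i := i - 2) (j := i) ⟨0, by omega⟩ l2
  have s0 := step (E ^ 1) l0
  have s1 := step (E ^ b) l1
  have s2 := step (E ^ 1) l2
  have s3 := step (E ^ 1) l3
  have s4 := map_add_inf (E ^ b) (T.eigenspace (lam ^ (2 - i)))
  have s5 : ((((((T.eigenspace (lam ^ i)).map (E ^ a)).map (E ^ 1)).map (E ^ b)).map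
      (E ^ 1)).map (E ^ 1)) = ⊥ := by
    rw [eq_bot_iff]
    rintro _ ⟨_, ⟨_, ⟨_, ⟨_, ⟨v, -, rfl⟩, rfl⟩, rfl⟩, rfl⟩, rfl⟩
    rw [Submodule.mem_bot, ← End.mul_apply, ← End.mul_apply, ← End.mul_apply, ← End.mul_apply,
      ← pow_add, ← pow_add, ← pow_add, ← pow_add, show 1 + 1 + b + 1 + a = p by omega, hE]
    rfl
  rw [s5, finrank_bot] at s3
  rw [hk]
  omega

theorem ineq1 (D : WD lam p T Y E) (hY : (Y - 1) ^ p = 0) :
    2 * rk (E ^ 1 * gs (lam ^ (-1 : ℤ))⁻¹ T (p - 1)) +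
      2 * rk (E ^ (p - 4) * gs (lam ^ (3 : ℤ))⁻¹ T (p - 1)) + 2 * rk (T - lam ^ (3 : ℤ) • 1) +
      rk (E ^ 4 * gs (lam ^ (-4 : ℤ))⁻¹ T (p - 1)) +
      rk (E ^ (p - 7) * gs (lam ^ (6 : ℤ))⁻¹ T (p - 1)) + rk (T - lam ^ (6 : ℤ) • 1) ≤
      3 * finrank K V + 2 * nl (Y - 1) := by
  have h7 := D.p7
  have hE : E ^ p = 0 := by
    ext v
    exact (D.kerE p v).mpr (by rw [hY]; rfl)
  have c1 := D.chain hE 1 (p - 4) (by omega) (-1) 1 3 (-3) (by norm_num) rfl rfl rfl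
  have c2 := D.chain hE 4 (p - 7) (by omega) (-4) 4 6 (-6) (by norm_num) rfl rfl rfl
  have e1 := sum_eig_le' T (ker (Y - 1))
    [lam ^ (1 : ℤ), lam ^ (-3 : ℤ), lam ^ (-1 : ℤ), lam ^ (4 : ℤ), lam ^ (-4 : ℤ)] (by
      simp only [List.nodup_cons, List.mem_cons, List.not_mem_nil, or_false, not_or,
        List.nodup_nil, and_true, not_false_eq_true]
      refine ⟨⟨?_, ?_, ?_, ?_⟩, ⟨?_, ?_, ?_⟩, ⟨?_, ?_⟩, ?_⟩ <;>
        exact D.dist (by omega) (by omega) (by omega) (by omega) (by omega))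
  have e2 := sum_eig_le' T (ker (Y - 1))
    [lam ^ (1 : ℤ), lam ^ (-3 : ℤ), lam ^ (-1 : ℤ), lam ^ (-6 : ℤ)] (by
      simp only [List.nodup_cons, List.mem_cons, List.not_mem_nil, or_false, not_or,
        List.nodup_nil, and_true, not_false_eq_true]
      refine ⟨⟨?_, ?_, ?_⟩, ⟨?_, ?_⟩, ?_⟩ <;>
        exact D.dist (by omega) (by omega) (by omega) (by omega) (by omega))
  have r3 := rk_sub T (lam ^ (3 : ℤ))
  have r6 := rk_sub T (lam ^ (6 : ℤ))
  simp only [D.rk_eps]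
  simp only [List.map_cons, List.map_nil, List.sum_cons, List.sum_nil, add_zero] at e1 e2
  unfold nl
  omega

theorem ineq2 (D : WD lam p T Y E) :
    rk (gs (lam ^ (1 : ℤ))⁻¹ T (p - 1)) + rk (gs (lam ^ (-1 : ℤ))⁻¹ T (p - 1)) +
      2 * rk (T - lam ^ (3 : ℤ) • 1) ≤ 2 * finrank K V + nl ((Y - 1) ^ 2) := by
  have s1 := step (E ^ 1) (le_refl (T.eigenspace (lam ^ (1 : ℤ))))
  have s2 := step (E ^ 2) (le_refl (T.eigenspace (lam ^ (-1 : ℤ))))
  have l1 := Submodule.finrank_mono (D.map_le 1 (i := 1) (j := 3) ⟨0, by omega⟩ le_rfl)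
  have l2 := Submodule.finrank_mono (D.map_le 2 (i := -1) (j := 3) ⟨0, by omega⟩ le_rfl)
  have l3 : finrank K ↥(T.eigenspace (lam ^ (1 : ℤ)) ⊓ ker (E ^ 1)) ≤
      finrank K ↥(T.eigenspace (lam ^ (1 : ℤ)) ⊓ ker (E ^ 2)) := by
    refine Submodule.finrank_mono (inf_le_inf_left _ fun v hv => ?_)
    rw [mem_ker] at hv ⊢
    rw [show 2 = 1 + 1 from rfl, pow_add, End.mul_apply, hv, map_zero]
  have e1 := sum_eig_le' T (ker (E ^ 2)) [lam ^ (1 : ℤ), lam ^ (-1 : ℤ)] (by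
      simp only [List.nodup_cons, List.mem_cons, List.not_mem_nil, or_false,
        List.nodup_nil, and_true, not_false_eq_true]
      exact D.dist (by omega) (by omega) (by omega) (by omega) (by omega))
  have r3 := rk_sub T (lam ^ (3 : ℤ))
  simp only [List.map_cons, List.map_nil, List.sum_cons, List.sum_nil, add_zero] at e1
  unfold rk nl at *
  rw [D.range_eps, D.range_eps, ← D.kerE1]
  omega

theorem rk_sub_ge (D : WD lam p T Y E) (hE : IsNilpotent E) {k : ℕ} {b : V}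
    (hb : T b = (lam⁻¹ ^ k) • b) (hk : ((Y - 1) ^ k) b ≠ 0) (j : ℤ) (S : Finset ℕ)
    (hS : ∀ i : ℕ, i ≤ k → ((p - 1 : ℕ) : ℤ) ∣ -k + 2 * i - j → i ∈ S) :
    k + 1 ≤ rk (T - lam ^ j • 1) + S.card := by
  classical
  have hli := li_pow E hE b k fun h => hk ((D.kerE k b).mp h)
  have hb' : b ∈ T.eigenspace (lam ^ (-k : ℤ)) := by
    rw [End.mem_eigenspace_iff, hb, zpow_neg, zpow_natCast, inv_pow]
  have h1 := card_le_of_li hli (Finset.univ.filter fun i : Fin (k + 1) => (i : ℕ) ∉ S)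
    (range (T - lam ^ j • 1)) fun i hi => by
      have hne : lam ^ (-k + 2 * (i : ℕ) : ℤ) - lam ^ j ≠ 0 := by
        rw [sub_ne_zero, Ne, D.per]
        exact fun h => (Finset.mem_filter.mp hi).2 (hS i (by omega) h)
      refine ⟨(lam ^ (-k + 2 * (i : ℕ) : ℤ) - lam ^ j)⁻¹ • (E ^ (i : ℕ)) b, ?_⟩
      rw [map_smul, LinearMap.sub_apply, End.mem_eigenspace_iff.mp (D.mapE i hb'),
        LinearMap.smul_apply, End.one_apply, ← sub_smul, smul_smul, inv_mul_cancel₀ hne, one_smul]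
  have h2 : (Finset.univ.filter fun i : Fin (k + 1) => (i : ℕ) ∈ S).card ≤ S.card :=
    Finset.card_le_card_of_injOn (fun i => (i : ℕ)) (fun i hi => (Finset.mem_filter.mp hi).2)
      fun _ _ _ _ h => Fin.ext h
  have h3 := Finset.card_filter_add_card_filter_not (s := Finset.univ)
    fun i : Fin (k + 1) => (i : ℕ) ∈ S
  rw [Finset.card_univ, Fintype.card_fin] at h3
  unfold rk
  omega

theorem rk_one_le (D : WD lam p T Y E) {k : ℕ} {b : V}
    (hb : T b = (lam⁻¹ ^ k) • b) (hk : ((Y - 1) ^ k) b ≠ 0) (a : ℕ) (j : ℤ) (i : ℕ)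
    (hi : i + a ≤ k) (hd : ((p - 1 : ℕ) : ℤ) ∣ -k + 2 * i - j) :
    1 ≤ rk (E ^ a * gs (lam ^ j)⁻¹ T (p - 1)) := by
  have hb' : b ∈ T.eigenspace (lam ^ (-k : ℤ)) := by
    rw [End.mem_eigenspace_iff, hb, zpow_neg, zpow_natCast, inv_pow]
  rw [D.rk_eps]
  refine one_le_of_mem (x := (E ^ a) ((E ^ i) b)) ⟨_, ?_, rfl⟩ fun h => hk ?_
  · rw [← D.per.mpr hd]; exact D.mapE i hb'
  · rw [← D.kerE, show k = (k - (i + a)) + a + i by omega, pow_add, pow_add, End.mul_apply,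
      End.mul_apply, h, map_zero]

theorem r3_ge (D : WD lam p T Y E) (hE : IsNilpotent E) {k : ℕ} (hkp : k ≤ p - 1) {b : V}
    (hb : T b = (lam⁻¹ ^ k) • b) (hk : ((Y - 1) ^ k) b ≠ 0) :
    k + 1 ≤ rk (T - lam ^ (3 : ℤ) • 1) + (if k % 2 = 1 ∧ 3 ≤ k then 1 else 0) +
      (if k % 2 = 1 ∧ p - 4 ≤ k then 1 else 0) := by
  classical
  have h7 := D.p7
  have hodd := D.pr.eq_two_or_odd.resolve_left (by omega)
  have := D.rk_sub_ge hE hb hk 3 ((if k % 2 = 1 ∧ 3 ≤ k then {(k + 3) / 2} else ∅) ∪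
    (if k % 2 = 1 ∧ p - 4 ≤ k then {(k + 4 - p) / 2} else ∅)) (by
      rintro i hi ⟨q, hq⟩
      have q1 : q < 1 := by
        by_contra h
        have : ((p - 1 : ℕ) : ℤ) * 1 ≤ ((p - 1 : ℕ) : ℤ) * q :=
          mul_le_mul_of_nonneg_left (by omega) (by omega)
        omega
      have q2 : -2 < q := by
        by_contra h
        have : ((p - 1 : ℕ) : ℤ) * q ≤ ((p - 1 : ℕ) : ℤ) * (-2) :=
          mul_le_mul_of_nonneg_left (by omega) (by omega)
        omega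
      rw [Finset.mem_union]
      rcases (by omega : q = 0 ∨ q = -1) with rfl | rfl
      · left
        rw [if_pos (by omega), Finset.mem_singleton]; omega
      · right
        rw [if_pos (by omega), Finset.mem_singleton]; omega)
  refine this.trans ?_
  rw [add_assoc]
  refine Nat.add_le_add_left ((Finset.card_union_le _ _).trans (Nat.add_le_add ?_ ?_)) _ <;>
    split_ifs <;> simp

theorem r6_ge (D : WD lam p T Y E) (hE : IsNilpotent E) {k : ℕ} (hkp : k ≤ p - 1) {b : V}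
    (hb : T b = (lam⁻¹ ^ k) • b) (hk : ((Y - 1) ^ k) b ≠ 0) :
    k + 1 ≤ rk (T - lam ^ (6 : ℤ) • 1) + (if k % 2 = 0 ∧ 6 ≤ k then 1 else 0) +
      (if k % 2 = 0 ∧ p - 7 ≤ k then 1 else 0) + (if k = 6 then 1 else 0) := by
  classical
  have h7 := D.p7
  have hodd := D.pr.eq_two_or_odd.resolve_left (by omega)
  have := D.rk_sub_ge hE hb hk 6 ((if k % 2 = 0 ∧ 6 ≤ k then {(k + 6) / 2} else ∅) ∪
    (if k % 2 = 0 ∧ p - 7 ≤ k then {(k + 7 - p) / 2} else ∅) ∪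
    (if k = 6 then {0} else ∅)) (by
      rintro i hi ⟨q, hq⟩
      have q1 : q < 1 := by
        by_contra h
        have : ((p - 1 : ℕ) : ℤ) * 1 ≤ ((p - 1 : ℕ) : ℤ) * q :=
          mul_le_mul_of_nonneg_left (by omega) (by omega)
        omega
      have q2 : -3 < q := by
        by_contra h
        have : ((p - 1 : ℕ) : ℤ) * q ≤ ((p - 1 : ℕ) : ℤ) * (-3) :=
          mul_le_mul_of_nonneg_left (by omega) (by omega)
        omega
      rw [Finset.mem_union, Finset.mem_union]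
      rcases (by omega : q = 0 ∨ q = -1 ∨ q = -2) with rfl | rfl | rfl
      · left; left
        rw [if_pos (by omega), Finset.mem_singleton]; omega
      · left; right
        rw [if_pos (by omega), Finset.mem_singleton]; omega
      · right
        rw [if_pos (by omega), Finset.mem_singleton]; omega)
  refine this.trans ?_
  rw [add_assoc, add_assoc]
  refine Nat.add_le_add_left ((Finset.card_union_le _ _).trans ?_) _
  rw [← add_assoc]
  refine Nat.add_le_add ((Finset.card_union_le _ _).trans (Nat.add_le_add ?_ ?_)) ?_ <;>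
    split_ifs <;> simp

theorem sim1 (D : WD lam p T Y E) (hE : IsNilpotent E) {k : ℕ} (hkp : k ≤ p - 1) {b : V}
    (hb : T b = (lam⁻¹ ^ k) • b) (hk : ((Y - 1) ^ k) b ≠ 0) {a0 : ℕ}
    (ha : k / 3 + (if k % 3 = 1 then 0 else 1) ≤ a0) :
    4 * (k + 1) ≤ 4 * a0 + (2 * rk (E ^ 1 * gs (lam ^ (-1 : ℤ))⁻¹ T (p - 1)) +
      2 * rk (E ^ (p - 4) * gs (lam ^ (3 : ℤ))⁻¹ T (p - 1)) + 2 * rk (T - lam ^ (3 : ℤ) • 1) +
      rk (E ^ 4 * gs (lam ^ (-4 : ℤ))⁻¹ T (p - 1)) +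
      rk (E ^ (p - 7) * gs (lam ^ (6 : ℤ))⁻¹ T (p - 1)) + rk (T - lam ^ (6 : ℤ) • 1)) := by
  have h7 := D.p7
  have hodd := D.pr.eq_two_or_odd.resolve_left (by omega)
  have r3 := D.r3_ge hE hkp hb hk
  have r6 := D.r6_ge hE hkp hb hk
  have a1 : k % 2 = 1 → 1 ≤ rk (E ^ 1 * gs (lam ^ (-1 : ℤ))⁻¹ T (p - 1)) := fun h =>
    D.rk_one_le hb hk 1 (-1) ((k - 1) / 2) (by omega) ⟨0, by omega⟩
  have a2 : k % 2 = 1 → p - 4 ≤ k → 1 ≤ rk (E ^ (p - 4) * gs (lam ^ (3 : ℤ))⁻¹ T (p - 1)) :=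
    fun h h' => D.rk_one_le hb hk (p - 4) 3 ((k + 4 - p) / 2) (by omega) ⟨-1, by omega⟩
  have a3 : k % 2 = 0 → 4 ≤ k → 1 ≤ rk (E ^ 4 * gs (lam ^ (-4 : ℤ))⁻¹ T (p - 1)) :=
    fun h h' => D.rk_one_le hb hk 4 (-4) ((k - 4) / 2) (by omega) ⟨0, by omega⟩
  have a4 : k % 2 = 0 → p - 7 ≤ k → 1 ≤ rk (E ^ (p - 7) * gs (lam ^ (6 : ℤ))⁻¹ T (p - 1)) :=
    fun h h' => D.rk_one_le hb hk (p - 7) 6 ((k + 7 - p) / 2) (by omega) ⟨-1, by omega⟩
  split_ifs at r3 r6 ha <;> omega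

theorem sim2 (D : WD lam p T Y E) (hE : IsNilpotent E) {k : ℕ} (hkp : k ≤ p - 1) {b : V}
    (hb : T b = (lam⁻¹ ^ k) • b) (hk : ((Y - 1) ^ k) b ≠ 0) {a0 : ℕ}
    (ha : k / 3 + (if k % 3 = 1 then 0 else 1) ≤ a0) :
    3 * (k + 1) ≤ 5 * a0 + (rk (gs (lam ^ (1 : ℤ))⁻¹ T (p - 1)) +
      rk (gs (lam ^ (-1 : ℤ))⁻¹ T (p - 1)) + 2 * rk (T - lam ^ (3 : ℤ) • 1)) := by
  have h7 := D.p7
  have hodd := D.pr.eq_two_or_odd.resolve_left (by omega)
  have r3 := D.r3_ge hE hkp hb hk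
  have a1 : k % 2 = 1 → 1 ≤ rk (gs (lam ^ (-1 : ℤ))⁻¹ T (p - 1)) := fun h => by
    simpa using D.rk_one_le hb hk 0 (-1) ((k - 1) / 2) (by omega) ⟨0, by omega⟩
  have a2 : k % 2 = 1 → 1 ≤ rk (gs (lam ^ (1 : ℤ))⁻¹ T (p - 1)) := fun h => by
    simpa using D.rk_one_le hb hk 0 1 ((k + 1) / 2) (by omega) ⟨0, by omega⟩
  split_ifs at r3 ha <;> omega

end WD

end Cfsg.Lib.Hls
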